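import Mathlib

set_option autoImplicit false

/-! There is no group of order 504 all of whose nontrivial elements have prime order. -/

namespace Cfsg.Agent.FGS75

variable {G : Type*} [Group G] [Finite G]

theorem no_group_of_order_504 (hord : ∀ g : G, g = 1 ∨ (orderOf g).Prime)
    (hG : Nat.card G = 504) {S Q : Subgroup G} (hS : Nat.card S = 8) (hQ : Nat.card Q = 9)
    (hN : Nat.card (Subgroup.normalizer (S : Set G)) = 56)
    (hTI : ∀ u ∈ S, u ≠ 1 → Subgroup.centralizer ({u} : Set G) = S)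
    (hS2 : ∀ u ∈ S, u * u = 1) {t : G} (ht : t ∈ S) (ht1 : t ≠ 1)
    (hQc : ∀ x ∈ Q, ∀ y ∈ Q, x * y = y * x) (hQ3 : ∀ x ∈ Q, x ^ 3 = 1)
    (hinv : ∀ x ∈ Q, t * x * t⁻¹ = x⁻¹) : False := by
  classical
  set H := Subgroup.normalizer (S : Set G) with hHdef
  have hSH : S ≤ H := Subgroup.le_normalizer
  have hdisj : ∀ x ∈ Q, x ∈ H → x = 1 := fun x hxQ hxH => by
    have h1 := Subgroup.orderOf_dvd_natCard Q hxQ
    have h2 := Subgroup.orderOf_dvd_natCard H hxH
    rw [hQ] at h1; rw [hN] at h2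
    exact orderOf_eq_one_iff.mp (Nat.eq_one_of_dvd_coprimes (by decide) h1 h2)
  have hcompl : Subgroup.IsComplement' Q H := Subgroup.isComplement'_of_coprime
    (by rw [hQ, hN, hG]) (by rw [hQ, hN]; decide)
  -- involutions of `H` lie in `S`
  have hinvol : ∀ u ∈ H, u * u = 1 → u ∈ S := by
    intro u huH hu
    haveI : (S.subgroupOf H).Normal :=
      Subgroup.normal_subgroupOf_of_le_normalizer le_rfl
    have hidx : (S.subgroupOf H).index = 7 := by
      have h := Subgroup.card_mul_index (S.subgroupOf H)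
      rw [Nat.card_congr (Subgroup.subgroupOfEquivOfLe hSH).toEquiv, hS, hN] at h
      omega
    have h7 : (⟨u, huH⟩ : H) ^ 7 ∈ S.subgroupOf H :=
      hidx ▸ (S.subgroupOf H).pow_index_mem _
    have : u ^ 7 = u := by
      have h2 : u ^ 2 = 1 := (pow_two u).trans hu
      rw [show 7 = 2 * 3 + 1 from rfl, pow_succ, pow_mul, h2, one_pow, one_mul]
    rw [← this]; exact h7
  -- choose an element of `S` different from `1` and `t`
  obtain ⟨s, hs, hs1, hst⟩ : ∃ s ∈ S, s ≠ 1 ∧ s ≠ t := by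
    by_contra h
    push Not at h
    haveI := Fintype.ofFinite S
    have : Fintype.card S ≤ ({⟨1, one_mem _⟩, ⟨t, ht⟩} : Finset S).card := by
      rw [← Finset.card_univ]
      refine Finset.card_le_card fun u _ => ?_
      by_cases hu : (u : G) = 1
      · simp [Subtype.ext_iff, hu]
      · simp [Subtype.ext_iff, h u u.2 hu]
    rw [← Nat.card_eq_fintype_card, hS] at this
    exact absurd (this.trans Finset.card_le_two) (by norm_num)
  have hss : s * s = 1 := hS2 s hs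
  have htt : t * t = 1 := hS2 t ht
  have hsinv : s⁻¹ = s := inv_eq_of_mul_eq_one_right hss
  have htinv : t⁻¹ = t := inv_eq_of_mul_eq_one_right htt
  have hcomm : t * s = s * t := by
    calc t * s = (t * s)⁻¹ := (inv_eq_of_mul_eq_one_right (hS2 _ (mul_mem ht hs))).symm
      _ = s * t := by rw [mul_inv_rev, hsinv, htinv]
  have hsH : s ∈ H := hSH hs
  have htH : t ∈ H := hSH ht
  -- the permutation induced by `s` on the cosets of `H`, labelled by `Q`
  let R : G → G → Prop := fun x y => x ∈ Q ∧ y ∈ Q ∧ y⁻¹ * s * x ∈ H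
  have hex : ∀ x ∈ Q, ∃ y, R x y := by
    intro x hx
    obtain ⟨⟨⟨y, hy⟩, ⟨h, hh⟩⟩, he⟩ := hcompl.2 (s * x)
    refine ⟨y, hx, hy, ?_⟩
    simp only at he
    rw [mul_assoc, ← he, inv_mul_cancel_left]
    exact hh
  have huniq : ∀ {x y y'}, R x y → R x y' → y = y' := by
    rintro x y y' ⟨-, hy, h⟩ ⟨-, hy', h'⟩
    have : y⁻¹ * y' ∈ H := by
      have := mul_mem h (inv_mem h')
      rwa [show y⁻¹ * s * x * (y'⁻¹ * s * x)⁻¹ = y⁻¹ * y' by group] at this
    exact inv_mul_eq_one.mp (hdisj _ (mul_mem (inv_mem hy) hy') this)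
  have hsymm : ∀ {x y}, R x y → R y x := by
    rintro x y ⟨hx, hy, h⟩
    refine ⟨hy, hx, ?_⟩
    have := inv_mem h
    rwa [mul_inv_rev, mul_inv_rev, inv_inv, hsinv, ← mul_assoc] at this
  have hneg : ∀ {x y}, R x y → R x⁻¹ y⁻¹ := by
    rintro x y ⟨hx, hy, h⟩
    refine ⟨inv_mem hx, inv_mem hy, ?_⟩
    have := mul_mem (mul_mem htH h) (inv_mem htH)
    have e : t * (y⁻¹ * s * x) * t⁻¹ = (t * y⁻¹ * t⁻¹) * (t * s * t⁻¹) * (t * x * t⁻¹) := by group
    rw [e, hinv x hx, hinv _ (inv_mem hy), hcomm, mul_inv_cancel_right] at this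
    exact this
  -- conjugates of involutions of `S` by elements of `Q`
  have hTIQ : ∀ x ∈ Q, ∀ u ∈ S, u ≠ 1 → x⁻¹ * u * x ∈ S → x = 1 := by
    intro x hx u hu hu1 hmem
    refine hdisj x hx ?_
    set v := x⁻¹ * u * x with hv
    have hv1 : v ≠ 1 := fun e => hu1 (by
      calc u = x * v * x⁻¹ := by rw [hv]; group
        _ = 1 := by rw [e]; group)
    have key : ∀ c : G, c ∈ S ↔ x * c * x⁻¹ ∈ S := by
      intro c
      rw [← hTI u hu hu1]
      conv_lhs => rw [hTI u hu hu1, ← hTI v hmem hv1]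
      rw [Subgroup.mem_centralizer_singleton_iff, Subgroup.mem_centralizer_singleton_iff, hv]
      constructor
      · intro e
        calc x * c * x⁻¹ * u = x * (c * (x⁻¹ * u * x)) * x⁻¹ := by group
          _ = u * (x * c * x⁻¹) := by rw [e]; group
      · intro e
        calc c * (x⁻¹ * u * x) = x⁻¹ * (x * c * x⁻¹ * u) * x := by group
          _ = x⁻¹ * u * x * c := by rw [e]; group
    exact Subgroup.mem_normalizer_iff.mpr fun c => key c
  have hfix : ∀ {x}, R x x → x = 1 := by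
    rintro x ⟨hx, -, h⟩
    refine hTIQ x hx s hs hs1 (hinvol _ h ?_)
    calc x⁻¹ * s * x * (x⁻¹ * s * x) = x⁻¹ * (s * s) * x := by group
      _ = 1 := by rw [hss]; group
  have hanti : ∀ {x}, R x x⁻¹ → x = 1 := by
    rintro x ⟨hx, -, h⟩
    rw [inv_inv] at h
    have h' : t * (x * s * x) ∈ H := mul_mem htH h
    have e : t * (x * s * x) = x⁻¹ * (t * s) * x := by
      calc t * (x * s * x) = (t * x * t⁻¹) * (t * s) * x := by group
        _ = x⁻¹ * (t * s) * x := by rw [hinv x hx]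
    rw [e] at h'
    have hts : t * s ≠ 1 := fun e' => hst (by
      rw [← inv_eq_of_mul_eq_one_right e', htinv])
    refine hTIQ x hx (t * s) (mul_mem ht hs) hts (hinvol _ h' ?_)
    calc x⁻¹ * (t * s) * x * (x⁻¹ * (t * s) * x) = x⁻¹ * ((t * s) * (t * s)) * x := by group
      _ = 1 := by rw [hS2 _ (mul_mem ht hs)]; group
  have h11 : R 1 1 := ⟨one_mem _, one_mem _, by simpa using hsH⟩
  -- coordinates
  obtain ⟨a, haQ, ha1⟩ : ∃ a ∈ Q, a ≠ 1 := by
    have : Q ≠ ⊥ := fun e => by rw [e, Subgroup.card_bot] at hQ; omega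
    obtain ⟨⟨a, ha⟩, hne⟩ := Q.ne_bot_iff_exists_ne_one.mp this
    exact ⟨a, ha, fun e => hne (Subtype.ext e)⟩
  obtain ⟨b, hab⟩ := hex a haQ
  have hbQ : b ∈ Q := hab.2.1
  have hb1 : b ≠ 1 := fun e => ha1 (huniq (hsymm (e ▸ hab)) h11)
  have hba : b ≠ a := fun e => ha1 (hfix (e ▸ hab))
  have hba' : b ≠ a⁻¹ := fun e => ha1 (hanti (e ▸ hab))
  have ha3 : orderOf a = 3 := orderOf_eq_prime (hQ3 a haQ) ha1
  have hb3 : orderOf b = 3 := orderOf_eq_prime (hQ3 b hbQ) hb1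
  have ha2 : a ^ 2 = a⁻¹ := eq_inv_of_mul_eq_one_left (by rw [← pow_succ]; exact hQ3 a haQ)
  have hb2 : b ^ 2 = b⁻¹ := eq_inv_of_mul_eq_one_left (by rw [← pow_succ]; exact hQ3 b hbQ)
  have hbA : b ∉ Subgroup.zpowers a := by
    intro h
    obtain ⟨i, rfl⟩ := (isOfFinOrder_of_finite a).mem_powers_iff_mem_zpowers.mpr h
    simp only at hb1 hba hba'
    rw [← pow_mod_orderOf, ha3] at hb1 hba hba'
    have : i % 3 = 0 ∨ i % 3 = 1 ∨ i % 3 = 2 := by omega
    rcases this with e | e | e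
    · exact hb1 (by rw [e, pow_zero])
    · exact hba (by rw [e, pow_one])
    · exact hba' (by rw [e, ha2])
  have hall : ∀ c ∈ Q, ∃ i j : Fin 3, c = a ^ (i : ℕ) * b ^ (j : ℕ) := by
    let f : Fin 3 × Fin 3 → Q := fun ij =>
      ⟨a ^ (ij.1 : ℕ) * b ^ (ij.2 : ℕ), mul_mem (pow_mem haQ _) (pow_mem hbQ _)⟩
    have hf : Function.Injective f := by
      rintro ⟨i, j⟩ ⟨k, l⟩ h
      have h' : a ^ (i : ℕ) * b ^ (j : ℕ) = a ^ (k : ℕ) * b ^ (l : ℕ) := congrArg Subtype.val h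
      have hjl : j = l := by
        by_contra hne
        apply hbA
        have e : b ^ ((j : ℤ) - (l : ℤ)) ∈ Subgroup.zpowers a := by
          have : b ^ ((j : ℤ) - (l : ℤ)) = (a ^ (i : ℕ))⁻¹ * a ^ (k : ℕ) := by
            rw [zpow_sub, zpow_natCast, zpow_natCast, eq_inv_mul_iff_mul_eq, ← mul_assoc, h',
              mul_inv_cancel_right]
          rw [this]
          exact mul_mem (inv_mem (pow_mem (Subgroup.mem_zpowers a) _))
            (pow_mem (Subgroup.mem_zpowers a) _)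
        have hc : Int.gcd ((j : ℤ) - l) 3 = 1 := by
          fin_cases j <;> fin_cases l <;> first | exact absurd rfl hne | rfl
        have hbez := Int.gcd_eq_gcd_ab ((j : ℤ) - l) 3
        rw [hc] at hbez
        have hb' : b = (b ^ ((j : ℤ) - l)) ^ Int.gcdA ((j : ℤ) - l) 3 := by
          conv_lhs => rw [← zpow_one b, show (1 : ℤ) = ((1 : ℕ) : ℤ) from rfl, hbez]
          rw [zpow_add, zpow_mul, zpow_mul, show (3 : ℤ) = ((3 : ℕ) : ℤ) from rfl, zpow_natCast,
            hQ3 b hbQ, one_zpow, mul_one]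
        rw [hb']
        exact zpow_mem e _
      subst hjl
      have h2 := mul_right_cancel h'
      rw [pow_inj_mod, ha3, Nat.mod_eq_of_lt i.2, Nat.mod_eq_of_lt k.2] at h2
      rw [Fin.ext h2]
    haveI := Fintype.ofFinite Q
    have hbij := (Fintype.bijective_iff_injective_and_card f).mpr
      ⟨hf, by rw [← Nat.card_eq_fintype_card (α := Q), hQ]; rfl⟩
    intro c hc
    obtain ⟨⟨i, j⟩, h⟩ := hbij.2 ⟨c, hc⟩
    exact ⟨i, j, (congrArg Subtype.val h).symm⟩
  obtain ⟨c, habc⟩ := hex (a * b) (mul_mem haQ hbQ)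
  have hcQ : c ∈ Q := habc.2.1
  have hab1 : a * b ≠ 1 := fun e => hba' (eq_inv_of_mul_eq_one_right e)
  have hcab : c = a * b⁻¹ ∨ c = a⁻¹ * b := by
    have hne : ∀ {x y}, R x y → x ≠ a * b → c ≠ y := fun hxy hx e =>
      hx (huniq (hsymm hxy) (hsymm (e ▸ habc)))
    obtain ⟨i, j, hc⟩ := hall c hcQ
    have n1 : a ≠ a * b := fun e => hb1 (mul_eq_left.mp e.symm)
    have n2 : b ≠ a * b := fun e => ha1 (mul_eq_right.mp e.symm)
    have n3 : a⁻¹ ≠ a * b := fun e => hbA (by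
      rw [eq_inv_mul_of_mul_eq e.symm]
      exact mul_mem (inv_mem (Subgroup.mem_zpowers a)) (inv_mem (Subgroup.mem_zpowers a)))
    have n4 : b⁻¹ ≠ a * b := fun e => by
      have : a = b⁻¹ * b⁻¹ := eq_mul_inv_of_mul_eq e.symm
      apply hba
      calc b = b ^ 3 * (b⁻¹ * b⁻¹) := by group
        _ = a := by rw [hQ3 b hbQ, one_mul, ← this]
    fin_cases i <;> fin_cases j <;> simp [ha2, hb2] at hc
    · exact absurd hc (hne h11 (Ne.symm hab1))
    · exact absurd hc (hne hab n1)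
    · exact absurd hc (hne (hneg hab) n3)
    · exact absurd hc (hne (hsymm hab) n2)
    · exact absurd (hfix (hc ▸ habc)) hab1
    · exact Or.inl hc
    · exact absurd hc (hne (hneg (hsymm hab)) n4)
    · exact Or.inr hc
    · refine absurd (hanti ?_) hab1
      rw [hc, hQc _ (inv_mem haQ) _ (inv_mem hbQ), ← mul_inv_rev] at habc
      exact habc
  -- powers of `g`
  have key : ∀ u ∈ Q, ∀ q : ℕ → G, q 0 = 1 → (∀ i < 7, R (u * q i) (q (i + 1))) →
      q 1 ≠ 1 → q 2 ≠ 1 → q 3 ≠ 1 → q 7 ≠ 1 → False := by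
    intro u hu q hq0 hq h1 h2 h3 h7
    have hpt : ∀ i ≤ 7, q i ∈ Q ∧ (q i)⁻¹ * (s * u) ^ i ∈ H := by
      intro i
      induction i with
      | zero => intro _; rw [hq0]; exact ⟨one_mem _, by simp⟩
      | succ i ih =>
        intro hi
        obtain ⟨-, hr2, hr3⟩ := hq i (by omega)
        refine ⟨hr2, ?_⟩
        have := mul_mem hr3 (ih (by omega)).2
        rw [show (q (i + 1))⁻¹ * s * (u * q i) * ((q i)⁻¹ * (s * u) ^ i)
          = (q (i + 1))⁻¹ * ((s * u) * (s * u) ^ i) by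
            simp only [mul_assoc, mul_inv_cancel_left], ← pow_succ'] at this
        exact this
    have hkill : ∀ i ≤ 7, orderOf (s * u) = i → q i ≠ 1 → False := by
      intro i hi ho hne
      obtain ⟨hmem, hH⟩ := hpt i hi
      rw [← ho, pow_orderOf_eq_one, mul_one, inv_mem_iff, ho] at hH
      exact hne (hdisj _ hmem hH)
    have hd := hG ▸ orderOf_dvd_natCard (s * u)
    rcases hord (s * u) with e | e
    · exact hkill 1 (by norm_num) (by rw [e, orderOf_one]) h1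
    · have hd' : orderOf (s * u) ∣ 2 ^ 3 * (3 ^ 2 * 7) := by norm_num; exact hd
      rcases (Nat.Prime.dvd_mul e).mp hd' with h | h
      · exact hkill 2 (by norm_num)
          ((Nat.prime_dvd_prime_iff_eq e Nat.prime_two).mp (e.dvd_of_dvd_pow h)) h2
      · rcases (Nat.Prime.dvd_mul e).mp h with h | h
        · exact hkill 3 (by norm_num)
            ((Nat.prime_dvd_prime_iff_eq e Nat.prime_three).mp (e.dvd_of_dvd_pow h)) h3
        · exact hkill 7 le_rfl ((Nat.prime_dvd_prime_iff_eq e (by norm_num)).mp h) h7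
  have hpow : ∀ x ∈ Q, x * x = x⁻¹ := fun x hx =>
    eq_inv_of_mul_eq_one_left (by rw [← pow_two, ← pow_succ]; exact hQ3 x hx)
  have n5 : a⁻¹ * b ≠ 1 := fun e => hba (inv_mul_eq_one.mp e).symm
  have n6 : a⁻¹ * b⁻¹ ≠ 1 := fun e => hba' (by rw [← inv_inv b, eq_inv_of_mul_eq_one_right e, inv_inv])
  have n7 : a * b⁻¹ ≠ 1 := fun e => hba (mul_inv_eq_one.mp e).symm
  rcases hcab with rfl | rfl
  · let q : ℕ → G := fun i => [1, b, a * b⁻¹, a⁻¹ * b, a, b⁻¹, a * b, a⁻¹ * b⁻¹].getD i 1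
    refine key a haQ q rfl (fun i hi => ?_) hb1 n7 n5 n6
    have e1 : a * (a * b⁻¹) = (a * b)⁻¹ := by
      rw [← mul_assoc, hpow a haQ, mul_inv_rev, hQc _ (inv_mem haQ) _ (inv_mem hbQ)]
    have hneg' : (a * b⁻¹)⁻¹ = a⁻¹ * b := by
      rw [mul_inv_rev, inv_inv, hQc _ hbQ _ (inv_mem haQ)]
    have hneg2 : (a * b)⁻¹ = a⁻¹ * b⁻¹ := by
      rw [mul_inv_rev, hQc _ (inv_mem hbQ) _ (inv_mem haQ)]
    interval_cases i
    · show R (a * 1) b; rw [mul_one]; exact hab
    · show R (a * b) (a * b⁻¹); exact habc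
    · show R (a * (a * b⁻¹)) (a⁻¹ * b); rw [e1, ← hneg']; exact hneg habc
    · show R (a * (a⁻¹ * b)) a; rw [mul_inv_cancel_left]; exact hsymm hab
    · show R (a * a) b⁻¹; rw [hpow a haQ]; exact hneg hab
    · show R (a * b⁻¹) (a * b); exact hsymm habc
    · show R (a * (a * b)) (a⁻¹ * b⁻¹)
      rw [← mul_assoc, hpow a haQ, ← hneg2, ← hneg']; exact hneg (hsymm habc)
  · let q : ℕ → G := fun i => [1, a⁻¹ * b, a⁻¹, a, a * b, a * b⁻¹, b⁻¹, b].getD i 1
    refine key (a * b) (mul_mem haQ hbQ) q rfl (fun i hi => ?_) n5 (inv_ne_one.mpr ha1) ha1 hb1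
    have hneg2 : (a * b)⁻¹ = a⁻¹ * b⁻¹ := by
      rw [mul_inv_rev, hQc _ (inv_mem hbQ) _ (inv_mem haQ)]
    have hneg' : (a⁻¹ * b)⁻¹ = a * b⁻¹ := by
      rw [mul_inv_rev, inv_inv, hQc _ (inv_mem hbQ) _ haQ]
    interval_cases i
    · show R (a * b * 1) (a⁻¹ * b); rw [mul_one]; exact habc
    · show R (a * b * (a⁻¹ * b)) a⁻¹
      rw [show a * b * (a⁻¹ * b) = b⁻¹ by
        rw [hQc a haQ b hbQ, mul_assoc, mul_inv_cancel_left, hpow b hbQ]]
      exact hneg (hsymm hab)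
    · show R (a * b * a⁻¹) a
      rw [hQc a haQ b hbQ, mul_inv_cancel_right]; exact hsymm hab
    · show R (a * b * a) (a * b)
      rw [hQc (a * b) (mul_mem haQ hbQ) a haQ, ← mul_assoc, hpow a haQ]; exact hsymm habc
    · show R (a * b * (a * b)) (a * b⁻¹)
      rw [hpow _ (mul_mem haQ hbQ), ← hneg']; exact hneg habc
    · show R (a * b * (a * b⁻¹)) b⁻¹
      rw [hQc a haQ (b⁻¹) (inv_mem hbQ), mul_assoc, mul_inv_cancel_left, hpow a haQ]; exact hneg hab
    · show R (a * b * b⁻¹) b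
      rw [mul_inv_cancel_right]; exact hab

end Cfsg.Agent.FGS75
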