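import Mathlib
import Cfsg.Agent.S0144
import Cfsg.Agent.Char.Burnside
import Cfsg.Agent.Lib.ClassSize
import Cfsg.Agent.Lib.FrobeniusComplement
import Cfsg.Agent.Invol.Basic
import Cfsg.Agent.FGS75.Kazarin
import Cfsg.Agent.FGS75.Order504

set_option autoImplicit false

/-! Nonsolvable groups in which all nontrivial elements have prime order and elements of the same
order are conjugate under automorphisms have order 60. -/

namespace Cfsg.Agent.FGS75

variable {G : Type*} [Group G] [Finite G]

/-- All nontrivial elements have prime order and equal orders mean conjugate by automorphisms. -/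
structure FourData (G : Type*) [Group G] : Prop where
  ord : ∀ g : G, g = 1 ∨ (orderOf g).Prime
  aut : ∀ x y : G, orderOf x = orderOf y → ∃ φ : MulAut G, φ x = y

namespace FourData

theorem isPGroup_centralizer (hd : FourData G) {r : ℕ} (hr : r.Prime) {x : G}
    (hx : orderOf x = r) : IsPGroup r (Subgroup.centralizer ({x} : Set G)) := by
  intro c
  refine ⟨1, Subtype.ext ?_⟩
  show (c : G) ^ r ^ 1 = 1
  rw [pow_one]
  rcases hd.ord c.1 with h | h
  · rw [h, one_pow]
  · suffices orderOf (c : G) = r by rw [← this, pow_orderOf_eq_one]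
    by_contra hne
    have hc : Commute (c : G) x := Subgroup.mem_centralizer_singleton_iff.mp c.2
    have hcop : (orderOf (c : G)).Coprime (orderOf x) := hx ▸ (Nat.coprime_primes h hr).mpr hne
    have ho := hc.orderOf_mul_eq_mul_orderOf_of_coprime hcop
    rcases hd.ord ((c : G) * x) with e | e
    · rw [e, orderOf_one, hx] at ho
      exact hr.ne_one (Nat.eq_one_of_mul_eq_one_left ho.symm)
    · rw [ho, hx] at e
      exact Nat.not_prime_mul h.ne_one hr.ne_one e

theorem centralizer_eq_of_mem_center (hd : FourData G) {r : ℕ} [hr : Fact r.Prime] (P : Sylow r G)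
    {u : (P : Subgroup G)} (hu : u ∈ Subgroup.center (P : Subgroup G)) (hu1 : u ≠ 1) :
    orderOf (u : G) = r ∧ Subgroup.centralizer ({(u : G)} : Set G) = P := by
  have hord : orderOf (u : G) = r := by
    have hp : (orderOf (u : G)).Prime := (hd.ord u.1).resolve_left fun e => hu1 (Subtype.ext e)
    obtain ⟨k, hk⟩ := P.isPGroup' u
    exact (Nat.prime_dvd_prime_iff_eq hp hr.out).mp (hp.dvd_of_dvd_pow
      (orderOf_dvd_of_pow_eq_one (congrArg Subtype.val hk : (u : G) ^ r ^ k = 1)))
  refine ⟨hord, P.is_maximal' (hd.isPGroup_centralizer hr.out hord) fun c hc => ?_⟩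
  exact Subgroup.mem_centralizer_singleton_iff.mpr
    (congrArg Subtype.val (Subgroup.mem_center_iff.mp hu ⟨c, hc⟩))

theorem exists_sylow (hd : FourData G) {r : ℕ} [hr : Fact r.Prime] {x : G} (hx : orderOf x = r) :
    ∃ P : Sylow r G, Subgroup.centralizer ({x} : Set G) = P := by
  obtain ⟨P, hP⟩ := (hd.isPGroup_centralizer hr.out hx).exists_le_sylow
  refine ⟨P, Subgroup.eq_of_le_of_card_ge hP ?_⟩
  have hdvd : r ∣ Nat.card G := hx ▸ orderOf_dvd_natCard x
  haveI : Nontrivial P := Finite.one_lt_card_iff_nontrivial.mp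
    (lt_of_lt_of_le hr.out.one_lt (Nat.le_of_dvd Nat.card_pos (P.dvd_card_of_dvd_card hdvd)))
  obtain ⟨⟨u, hu⟩, hu1⟩ := @exists_ne _ (P.isPGroup'.center_nontrivial) 1
  obtain ⟨huo, huC⟩ := hd.centralizer_eq_of_mem_center P hu fun e => hu1 (Subtype.ext e)
  obtain ⟨φ, hφ⟩ := hd.aut _ _ (huo.trans hx.symm)
  refine le_of_eq ?_
  rw [← huC]
  refine Nat.card_congr (φ.toEquiv.subtypeEquiv fun c => ?_)
  rw [Subgroup.mem_centralizer_singleton_iff, Subgroup.mem_centralizer_singleton_iff]
  show c * u = u * c ↔ φ c * x = x * φ c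
  rw [← hφ, ← map_mul, ← map_mul]
  exact φ.injective.eq_iff.symm

/-- The number of elements of order `r`. -/
theorem card_orderOf_eq (hd : FourData G) {r : ℕ} [hr : Fact r.Prime] (P : Sylow r G) :
    Nat.card {x : G // orderOf x = r}
        * ((P : Subgroup G).relIndex (Subgroup.normalizer ((P : Subgroup G) : Set G)) * Nat.card P)
      = (Nat.card (Subgroup.center (P : Subgroup G)) - 1) * Nat.card G := by
  classical
  haveI := Fintype.ofFinite (Sylow r G)
  choose f hf using fun x : {x : G // orderOf x = r} => hd.exists_sylow x.2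
  have hfib : ∀ Q : Sylow r G,
      Nat.card {x : {x : G // orderOf x = r} // f x = Q} = Nat.card (Subgroup.center (P : Subgroup G)) - 1 := by
    intro Q
    rw [show Nat.card (Subgroup.center (P : Subgroup G)) = Nat.card (Subgroup.center (Q : Subgroup G)) from
      Nat.card_congr (Subgroup.centerCongr (P.equiv Q)).toEquiv]
    have hne : Nat.card {u : Subgroup.center (Q : Subgroup G) // u ≠ 1} + 1
        = Nat.card (Subgroup.center (Q : Subgroup G)) := by
      rw [← Finite.card_option]; exact Nat.card_congr (Equiv.optionSubtypeNe 1)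
    rw [← hne, Nat.add_sub_cancel]
    refine (Nat.card_eq_of_bijective (fun u : {u : Subgroup.center (Q : Subgroup G) // u ≠ 1} =>
      (⟨⟨((u.1 : (Q : Subgroup G)) : G), (hd.centralizer_eq_of_mem_center Q u.1.2
        fun e => u.2 (Subtype.ext e)).1⟩, ?_⟩ : {x : {x : G // orderOf x = r} // f x = Q})) ?_).symm
    · refine Sylow.ext ?_
      rw [← hf]
      exact (hd.centralizer_eq_of_mem_center Q u.1.2 fun e => u.2 (Subtype.ext e)).2
    · constructor
      · intro u v h
        exact Subtype.ext (Subtype.ext (Subtype.ext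
          (congrArg (fun t : {x : {x : G // orderOf x = r} // f x = Q} => (t.1 : G)) h)))
      · rintro ⟨⟨x, hx⟩, hxQ⟩
        have hC : Subgroup.centralizer ({x} : Set G) = Q := hxQ ▸ hf ⟨x, hx⟩
        have hxmem : x ∈ (Q : Subgroup G) := hC ▸ Subgroup.mem_centralizer_singleton_iff.mpr rfl
        have hxc : (⟨x, hxmem⟩ : (Q : Subgroup G)) ∈ Subgroup.center (Q : Subgroup G) :=
          Subgroup.mem_center_iff.mpr fun c => Subtype.ext
            (Subgroup.mem_centralizer_singleton_iff.mp (hC.ge c.2))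
        refine ⟨⟨⟨_, hxc⟩, fun e => ?_⟩, rfl⟩
        have : x = 1 := congrArg (fun t : Subgroup.center (Q : Subgroup G) => ((t : (Q : Subgroup G)) : G)) e
        rw [this, orderOf_one] at hx
        exact hr.out.ne_one hx.symm
  rw [← Nat.card_congr (Equiv.sigmaFiberEquiv f), Nat.card_sigma,
    Finset.sum_congr rfl (fun Q _ => hfib Q), Finset.sum_const, Finset.card_univ, smul_eq_mul,
    ← Nat.card_eq_fintype_card, P.card_eq_index_normalizer]
  set N := Subgroup.normalizer ((P : Subgroup G) : Set G)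
  have hN : (P : Subgroup G).relIndex N * Nat.card P = Nat.card N := by
    rw [mul_comm, Subgroup.relIndex,
      ← Nat.card_congr (Subgroup.subgroupOfEquivOfLe (Subgroup.le_normalizer : (P : Subgroup G) ≤ N)).toEquiv,
      Subgroup.card_mul_index]
  rw [hN, ← Subgroup.index_mul_card N]
  show N.index * _ * Nat.card N = _
  ring

theorem card_eq_one_add (hd : FourData G) {r1 r2 r3 : ℕ} (h1 : r1.Prime) (h2 : r2.Prime)
    (h3 : r3.Prime) (h12 : r1 ≠ r2) (h13 : r1 ≠ r3) (h23 : r2 ≠ r3)
    (hpr : ∀ s : ℕ, s.Prime → s ∣ Nat.card G → s = r1 ∨ s = r2 ∨ s = r3) :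
    Nat.card G = 1 + Nat.card {x : G // orderOf x = r1} + Nat.card {x : G // orderOf x = r2}
      + Nat.card {x : G // orderOf x = r3} := by
  classical
  haveI := Fintype.ofFinite G
  simp only [Nat.card_eq_fintype_card, Fintype.card_subtype]
  rw [← Finset.card_univ, ← Finset.card_singleton (1 : G),
    ← Finset.card_union_of_disjoint, ← Finset.card_union_of_disjoint,
    ← Finset.card_union_of_disjoint]
  · congr 1
    refine (Finset.eq_univ_iff_forall.mpr fun g => ?_).symm
    simp only [Finset.mem_union, Finset.mem_singleton, Finset.mem_filter, Finset.mem_univ, true_and]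
    rcases hd.ord g with h | h
    · exact Or.inl (Or.inl (Or.inl h))
    · rcases hpr _ h (Nat.card_eq_fintype_card (α := G) ▸ orderOf_dvd_natCard g) with e | e | e <;>
        tauto
  all_goals
    rw [Finset.disjoint_left]
    intro g hg hg'
    simp only [Finset.mem_union, Finset.mem_singleton, Finset.mem_filter, Finset.mem_univ, true_and]
      at hg hg'
  · rcases hg with (hg | hg) | hg
    · rw [hg, orderOf_one] at hg'; exact h3.ne_one hg'.symm
    · exact h13 (hg.symm.trans hg')
    · exact h23 (hg.symm.trans hg')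
  · rcases hg with hg | hg
    · rw [hg, orderOf_one] at hg'; exact h2.ne_one hg'.symm
    · exact h12 (hg.symm.trans hg')
  · rw [hg, orderOf_one] at hg'; exact h1.ne_one hg'.symm

/-- A self-normalising Sylow subgroup is nonabelian. -/
theorem not_comm_of_relIndex_one {r s₁ s₂ : ℕ} [hr : Fact r.Prime] (P : Sylow r G)
    (hns : ¬ Group.IsSolvable G) (h1 : s₁.Prime) (h2 : s₂.Prime)
    (hpr : ∀ s : ℕ, s.Prime → s ∣ Nat.card G → s = r ∨ s = s₁ ∨ s = s₂)
    (hk : (P : Subgroup G).relIndex (Subgroup.normalizer ((P : Subgroup G) : Set G)) = 1) :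
    ¬ IsMulCommutative (P : Subgroup G) := by
  intro hc
  have hNC : Subgroup.normalizer ((P : Subgroup G) : Set G) ≤ Subgroup.centralizer ((P : Subgroup G) : Set G) :=
    (Subgroup.relIndex_eq_one.mp hk).trans fun a ha => Subgroup.mem_centralizer_iff.mpr fun b hb =>
      congrArg Subtype.val (isMulCommutative_iff.mp hc ⟨b, hb⟩ ⟨a, ha⟩)
  have hcompl := MonoidHom.ker_transferSylow_isComplement' P hNC
  set K := (MonoidHom.transferSylow P hNC).ker with hK
  have hidx : K.index = Nat.card P := hcompl.symm.index_eq_card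
  have hnd : ¬ r ∣ Nat.card K := fun hd => by
    rw [← hcompl.index_eq_card] at hd
    exact P.not_dvd_index hd
  apply hns
  haveI : Group.IsSolvable K := Char.solvable_of_card_eq_pow_mul_pow s₁ s₂ h1 h2 _ rfl fun s hs hd =>
    (hpr s hs (hd.trans K.card_subgroup_dvd_card)).resolve_left fun e => hnd (e ▸ hd)
  haveI : Group.IsNilpotent (P : Subgroup G) := P.isPGroup'.isNilpotent
  exact Group.isSolvable_of_ker_le_range K.subtype (MonoidHom.transferSylow P hNC)
    (by rw [Subgroup.range_subtype])

theorem sq_mul_center_le {r : ℕ} [hr : Fact r.Prime] {P : Type*} [Group P] [Finite P]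
    (hP : IsPGroup r P) (hnc : ¬ IsMulCommutative P) :
    r ^ 2 * Nat.card (Subgroup.center P) ≤ Nat.card P := by
  obtain ⟨i, hi⟩ := hP.index (Subgroup.center P)
  rw [← Subgroup.card_mul_index (Subgroup.center P), hi, mul_comm]
  refine Nat.mul_le_mul_left _ (Nat.pow_le_pow_right hr.out.pos ?_)
  by_contra hlt
  apply hnc
  haveI : IsCyclic (P ⧸ Subgroup.center P) := by
    rcases Nat.le_one_iff_eq_zero_or_eq_one.mp (by omega : i ≤ 1) with rfl | rfl
    · haveI : Subsingleton (P ⧸ Subgroup.center P) :=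
        (Nat.card_eq_one_iff_unique.mp (by rw [← Subgroup.index, hi, pow_zero])).1
      infer_instance
    · exact isCyclic_of_prime_card (p := r) (by rw [← Subgroup.index, hi, pow_one])
  exact isMulCommutative_iff.mpr
    (commutative_of_cyclic_center_quotient (QuotientGroup.mk' (Subgroup.center P))
      (by rw [QuotientGroup.ker_mk']))

/-- For odd `r` either the normaliser quotient has order 2 and the Sylow subgroup is abelian, or
there are at most a third of all elements of order `r`. -/
theorem two_or_three_mul_le (hd : FourData G) (hns : ¬ Group.IsSolvable G) {r s₁ s₂ : ℕ}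
    [hr : Fact r.Prime] (hr2 : r ≠ 2) (h1 : s₁.Prime) (h2 : s₂.Prime)
    (hpr : ∀ s : ℕ, s.Prime → s ∣ Nat.card G → s = r ∨ s = s₁ ∨ s = s₂) (P : Sylow r G) :
    ((P : Subgroup G).relIndex (Subgroup.normalizer ((P : Subgroup G) : Set G)) = 2 ∧
        IsMulCommutative (P : Subgroup G)) ∨
      3 * Nat.card {x : G // orderOf x = r} * Nat.card P ≤ Nat.card G * (Nat.card P - 1) := by
  classical
  have hcount := hd.card_orderOf_eq P
  set k := (P : Subgroup G).relIndex (Subgroup.normalizer ((P : Subgroup G) : Set G)) with hk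
  set E := Nat.card {x : G // orderOf x = r}
  set a := Nat.card P
  set z := Nat.card (Subgroup.center (P : Subgroup G))
  have hk0 : 1 ≤ k := Nat.pos_of_ne_zero Subgroup.index_ne_zero_of_finite
  have hr3 : 3 ≤ r := by have := hr.out.two_le; omega
  by_cases hc : IsMulCommutative (P : Subgroup G)
  · by_cases hk2 : k = 2
    · exact Or.inl ⟨hk2, hc⟩
    right
    have hk1 : k ≠ 1 := fun e => not_comm_of_relIndex_one P hns h1 h2 hpr e hc
    have hk3 : 3 ≤ k := by omega
    have hz : z ≤ a := Subgroup.card_le_card_group _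
    calc 3 * E * a ≤ k * E * a := Nat.mul_le_mul_right _ (Nat.mul_le_mul_right _ hk3)
      _ = (z - 1) * Nat.card G := by rw [← hcount]; ring
      _ ≤ (a - 1) * Nat.card G := Nat.mul_le_mul_right _ (by omega)
      _ = _ := mul_comm _ _
  · right
    have hz := sq_mul_center_le P.isPGroup' hc
    have hz' : 9 * z ≤ a := (Nat.mul_le_mul_right _ (by nlinarith : 9 ≤ r ^ 2)).trans hz
    calc 3 * E * a ≤ 3 * (k * E * a) := by
          rw [mul_assoc, mul_assoc k]
          exact Nat.mul_le_mul_left _ (Nat.le_mul_of_pos_left _ hk0)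
      _ = (3 * (z - 1)) * Nat.card G := by rw [mul_assoc 3, ← hcount]; ring
      _ ≤ (a - 1) * Nat.card G := Nat.mul_le_mul_right _ (by omega)
      _ = _ := mul_comm _ _

theorem three_mul_add_two_le {E a n : ℕ} (h : 3 * E * a ≤ n * (a - 1)) (ha : a ∣ n) (hlt : a < n) :
    3 * E + 2 ≤ n := by
  obtain ⟨m, rfl⟩ := ha
  have hm : 2 ≤ m := by
    rcases m with _ | _ | m <;> simp_all
  have hm' : 3 * E ≤ m * (a - 1) := by
    refine Nat.le_of_mul_le_mul_right ?_ (Nat.pos_of_ne_zero fun e => by simp [e] at hlt : 0 < a)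
    calc 3 * E * a ≤ a * m * (a - 1) := h
      _ = m * (a - 1) * a := by ring
  rw [Nat.mul_sub, mul_one, mul_comm m a] at hm'
  have : m ≤ a * m := Nat.le_mul_of_pos_left m (Nat.pos_of_ne_zero fun e => by simp [e] at hlt)
  omega

theorem card_lt {r s : ℕ} [hr : Fact r.Prime] (hs : s.Prime) (hne : s ≠ r) (hs' : s ∣ Nat.card G)
    (P : Sylow r G) : Nat.card P < Nat.card G := by
  refine lt_of_le_of_ne (Subgroup.card_le_card_group _) fun e => hne ?_
  rw [← e, P.card_eq_multiplicity] at hs'
  exact (Nat.prime_dvd_prime_iff_eq hs hr.out).mp (hs.dvd_of_dvd_pow hs')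

theorem even_card (hd : FourData G) (hns : ¬ Group.IsSolvable G) {r1 r2 r3 : ℕ}
    (h1 : r1.Prime) (h2 : r2.Prime) (h3 : r3.Prime) (h12 : r1 ≠ r2) (h13 : r1 ≠ r3) (h23 : r2 ≠ r3)
    (d1 : r1 ∣ Nat.card G) (d2 : r2 ∣ Nat.card G) (d3 : r3 ∣ Nat.card G)
    (hpr : ∀ s : ℕ, s.Prime → s ∣ Nat.card G → s = r1 ∨ s = r2 ∨ s = r3) : 2 ∣ Nat.card G := by
  by_contra hodd
  have hnot2 : ∀ {r : ℕ}, r ∣ Nat.card G → r ≠ 2 := fun hr e => hodd (e ▸ hr)
  have key : ∀ {r s₁ s₂ : ℕ}, r.Prime → s₁.Prime → s₂.Prime → r ∣ Nat.card G → s₁ ∣ Nat.card G →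
      s₁ ≠ r → (∀ s : ℕ, s.Prime → s ∣ Nat.card G → s = r ∨ s = s₁ ∨ s = s₂) →
      3 * Nat.card {x : G // orderOf x = r} + 2 ≤ Nat.card G := by
    intro r s₁ s₂ hr hs₁ hs₂ hrd hsd hne hp
    haveI := Fact.mk hr
    obtain ⟨P⟩ := (inferInstance : Nonempty (Sylow r G))
    rcases hd.two_or_three_mul_le hns (hnot2 hrd) hs₁ hs₂ hp P with ⟨hk, -⟩ | h
    · refine absurd ((hk ▸ ?_) : 2 ∣ Nat.card G) hodd
      exact (Subgroup.index_dvd_card _).trans (Subgroup.card_subgroup_dvd_card _)
    · exact three_mul_add_two_le h (Subgroup.card_subgroup_dvd_card _) (card_lt hs₁ hne hsd P)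
  have e1 := key h1 h2 h3 d1 d2 h12.symm hpr
  have e2 := key h2 h1 h3 d2 d1 h12 (fun s hs hd => by have := hpr s hs hd; tauto)
  have e3 := key h3 h1 h2 d3 d1 h13 (fun s hs hd => by have := hpr s hs hd; tauto)
  have e := hd.card_eq_one_add h1 h2 h3 h12 h13 h23 hpr
  omega

/-- Facts about a Sylow 2-subgroup. -/
theorem sylow_two (hd : FourData G) (hns : ¬ Group.IsSolvable G) {p q : ℕ} (hp : p.Prime) (hq : q.Prime)
    (hp2 : p ≠ 2) (hq2 : q ≠ 2) (h2 : 2 ∣ Nat.card G)
    (hpr : ∀ s : ℕ, s.Prime → s ∣ Nat.card G → s = 2 ∨ s = p ∨ s = q) (S : Sylow 2 G) :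
    (∀ u ∈ (S : Subgroup G), u * u = 1) ∧
    (∀ u ∈ (S : Subgroup G), u ≠ 1 → Subgroup.centralizer ({u} : Set G) = S) ∧
    4 ≤ Nat.card S ∧
    Nat.card {x : G // orderOf x = 2} * Nat.card S = Nat.card G ∧
    (Nat.card S - 1).Prime ∧
    Nat.card (Subgroup.normalizer ((S : Subgroup G) : Set G)) = Nat.card S * (Nat.card S - 1) := by
  classical
  haveI : Fact (Nat.Prime 2) := ⟨Nat.prime_two⟩
  have hsq : ∀ u ∈ (S : Subgroup G), u * u = 1 := by
    intro u hu
    rcases hd.ord u with h | h
    · rw [h, one_mul]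
    · obtain ⟨k, hk⟩ := S.isPGroup' ⟨u, hu⟩
      have h' := (Nat.prime_dvd_prime_iff_eq h Nat.prime_two).mp (h.dvd_of_dvd_pow
        (orderOf_dvd_of_pow_eq_one (congrArg Subtype.val hk : u ^ 2 ^ k = 1)))
      rw [← pow_two, ← h', pow_orderOf_eq_one]
  have hc : IsMulCommutative (S : Subgroup G) := by
    refine isMulCommutative_iff.mpr fun a b => Subtype.ext ?_
    have hi : ∀ u ∈ (S : Subgroup G), u⁻¹ = u := fun u hu => inv_eq_of_mul_eq_one_right (hsq u hu)
    show (a : G) * b = b * a
    calc (a : G) * b = ((a : G) * b)⁻¹ := (hi _ (mul_mem a.2 b.2)).symm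
      _ = b * a := by rw [mul_inv_rev, hi a a.2, hi b b.2]
  have hTI : ∀ u ∈ (S : Subgroup G), u ≠ 1 → Subgroup.centralizer ({u} : Set G) = S := fun u hu hu1 =>
    (hd.centralizer_eq_of_mem_center S (u := ⟨u, hu⟩)
      (Subgroup.mem_center_iff.mpr fun g => isMulCommutative_iff.mp hc g ⟨u, hu⟩)
      fun e => hu1 (congrArg Subtype.val e)).2
  set N := Subgroup.normalizer ((S : Subgroup G) : Set G)
  have hcount := hd.card_orderOf_eq S
  have hz : Subgroup.center (S : Subgroup G) = ⊤ := eq_top_iff.mpr fun u _ =>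
    Subgroup.mem_center_iff.mpr fun g => isMulCommutative_iff.mp hc g u
  rw [hz, Subgroup.card_top] at hcount
  set k := (S : Subgroup G).relIndex N
  set E := Nat.card {x : G // orderOf x = 2}
  set s := Nat.card S with hs_def
  have hs2 : 2 ≤ s := Nat.le_of_dvd Nat.card_pos (S.dvd_card_of_dvd_card h2)
  -- all involutions are conjugate
  obtain ⟨t, ht⟩ := exists_prime_orderOf_dvd_card' (G := (S : Subgroup G)) 2 (S.dvd_card_of_dvd_card h2)
  rw [← Subgroup.orderOf_coe] at ht
  have ht1 : (t : G) ≠ 1 := fun e => by rw [e, orderOf_one] at ht; omega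
  have hconj : ∀ y : G, orderOf y = 2 → IsConj (t : G) y := by
    by_contra hcon
    push Not at hcon
    obtain ⟨y, hy, hty⟩ := hcon
    -- every involution lies in `S`
    have step : ∀ {a b : G}, orderOf a = 2 → orderOf b = 2 → ¬ IsConj a b → a ∈ (S : Subgroup G) →
        b ∈ (S : Subgroup G) := by
      intro a b ha hb hab haS
      obtain ⟨c, hc2, hca, hcb⟩ := Invol.exists_common_of_not_isConj ha hb hab
      have hcS : c ∈ (S : Subgroup G) := by
        rw [← hTI a haS fun e => by rw [e, orderOf_one] at ha; omega]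
        exact Subgroup.mem_centralizer_singleton_iff.mpr hca.eq
      rw [← hTI c hcS fun e => by rw [e, orderOf_one] at hc2; omega]
      exact Subgroup.mem_centralizer_singleton_iff.mpr hcb.eq.symm
    have hyS := step ht hy hty t.2
    have hall : ∀ a : G, orderOf a = 2 → a ∈ (S : Subgroup G) := fun a ha => by
      by_cases h : IsConj (t : G) a
      · exact step hy ha (fun h' => hty (h.trans h'.symm)) hyS
      · exact step ht ha h t.2
    have hnorm : (S : Subgroup G).Normal := by
      refine ⟨fun u hu g => ?_⟩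
      by_cases hu1 : u = 1
      · simp [hu1]
      · refine hall _ ?_
        have hu2 : orderOf u = 2 :=
          orderOf_eq_prime ((pow_two u).trans (hsq u hu)) hu1
        rw [← hu2]
        exact (MulAut.conj g).orderOf_eq u
    apply hns
    haveI := hnorm
    haveI : Group.IsNilpotent (S : Subgroup G) := S.isPGroup'.isNilpotent
    haveI : Group.IsSolvable (G ⧸ (S : Subgroup G)) :=
      Char.solvable_of_card_eq_pow_mul_pow p q hp hq _ rfl fun r hr hrd =>
        (hpr r hr (hrd.trans (Subgroup.card_quotient_dvd_card _))).resolve_left fun e =>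
          S.not_dvd_index (e ▸ hrd)
    exact Group.isSolvable_of_ker_le_range (S : Subgroup G).subtype
      (QuotientGroup.mk' (S : Subgroup G)) (by rw [QuotientGroup.ker_mk', Subgroup.range_subtype])
  have hE : E * s = Nat.card G := by
    have hclass : E = (Subgroup.centralizer ({(t : G)} : Set G)).index := by
      rw [← ClassSize.natCard_carrier]
      refine Nat.card_congr (Equiv.subtypeEquivRight fun y => ?_)
      rw [ConjClasses.mem_carrier_iff_mk_eq, ConjClasses.mk_eq_mk_iff_isConj]
      refine ⟨fun hy => (hconj y hy).symm, fun hy => ?_⟩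
      obtain ⟨g, hg⟩ := isConj_iff.mp hy.symm
      rw [← hg]
      exact ((MulAut.conj g).orderOf_eq (t : G)).trans ht
    rw [hclass, hTI _ t.2 ht1, Subgroup.index_mul_card]
  have hk : k = s - 1 := by
    refine Nat.eq_of_mul_eq_mul_left (Nat.card_pos (α := G)) ?_
    calc Nat.card G * k = E * (k * s) := by rw [← hE]; ring
      _ = Nat.card G * (s - 1) := by rw [hcount, mul_comm]
  have hk1 : k ≠ 1 := fun e => not_comm_of_relIndex_one S hns hp hq hpr e hc
  have hs4 : 4 ≤ s := by
    obtain ⟨n, hn⟩ := S.isPGroup'.exists_card_eq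
    have hn' : s = 2 ^ n := hn
    rcases n with _ | _ | n
    · simp at hn'; omega
    · simp at hn'; omega
    · rw [hn', pow_succ, pow_succ]; have := Nat.one_le_two_pow (n := n); omega
  have hN : Nat.card N = s * k := by
    rw [hs_def, ← Nat.card_congr (Subgroup.subgroupOfEquivOfLe
      (Subgroup.le_normalizer : (S : Subgroup G) ≤ N)).toEquiv]
    exact (Subgroup.card_mul_index _).symm
  refine ⟨hsq, hTI, hs4, hE, ?_, hk ▸ hN⟩
  -- a fixed-point-free group without elements of composite order has prime order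
  rw [← hk]
  have hkodd : ¬ 2 ∣ k := by
    obtain ⟨n, hn⟩ := S.isPGroup'.exists_card_eq
    have hn' : s = 2 ^ n := hn
    rcases n with _ | n
    · simp at hn'; omega
    · rw [pow_succ] at hn'; omega
  haveI hSn : ((S : Subgroup G).subgroupOf N).Normal :=
    Subgroup.normal_subgroupOf_of_le_normalizer le_rfl
  have hcopSK : Nat.Coprime (Nat.card ((S : Subgroup G).subgroupOf N)) ((S : Subgroup G).subgroupOf N).index := by
    rw [Nat.card_congr (Subgroup.subgroupOfEquivOfLe (Subgroup.le_normalizer : (S : Subgroup G) ≤ N)).toEquiv]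
    obtain ⟨n, hn⟩ := S.isPGroup'.exists_card_eq
    rw [hn]
    exact Nat.Coprime.pow_left n (Nat.prime_two.coprime_iff_not_dvd.mpr hkodd)
  obtain ⟨K₀, hK₀⟩ := Subgroup.exists_right_complement'_of_coprime hcopSK
  set K := K₀.map N.subtype with hKdef
  have hKN : K ≤ N := Subgroup.map_subtype_le _
  have hKcard : Nat.card K = k := by
    rw [hKdef, Subgroup.card_map_of_injective N.subtype_injective]
    exact (hK₀.symm.index_eq_card).symm
  have hfpf : ∀ h ∈ K, h ≠ 1 → (S : Subgroup G) ⊓ Subgroup.centralizer ({h} : Set G) = ⊥ := by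
    intro h hh hh1
    rw [eq_bot_iff]
    rintro u ⟨huS, huC⟩
    by_contra hu1
    rw [Subgroup.mem_bot] at hu1
    have hhS : h ∈ (S : Subgroup G) := by
      rw [← hTI u huS hu1]
      exact Subgroup.mem_centralizer_singleton_iff.mpr
        (Subgroup.mem_centralizer_singleton_iff.mp huC).symm
    have d1 := Subgroup.orderOf_dvd_natCard K hh
    have d2 := Subgroup.orderOf_dvd_natCard (S : Subgroup G) hhS
    obtain ⟨n, hn⟩ := S.isPGroup'.exists_card_eq
    rw [hKcard] at d1; rw [hn] at d2
    exact hh1 (orderOf_eq_one_iff.mp (Nat.eq_one_of_dvd_coprimes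
      (Nat.Coprime.pow_left n (Nat.prime_two.coprime_iff_not_dvd.mpr hkodd)) d2 d1))
  have hSne : (S : Subgroup G) ≠ ⊥ := fun e => by
    have : s = 1 := by rw [hs_def]; simp [e]
    omega
  have hcyc : ∀ A : Subgroup G, A ≤ K → (IsMulCommutative A ∨ ∃ a b : ℕ, a.Prime ∧ b.Prime ∧
      Nat.card A = a * b) → ∀ a b : ℕ, a.Prime → b.Prime → Nat.card A = a * b → False := by
    intro A hA hor a b ha hb hab
    haveI := FrobeniusCompl.isCyclic_of_le hKN hSne hfpf A hA hor
    obtain ⟨g, hg⟩ := IsCyclic.exists_ofOrder_eq_natCard (α := A)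
    rw [← Subgroup.orderOf_coe, hab] at hg
    rcases hd.ord (g : G) with e | e
    · rw [e, orderOf_one] at hg; exact ha.ne_one (Nat.eq_one_of_mul_eq_one_right hg.symm)
    · rw [hg] at e; exact Nat.not_prime_mul ha.ne_one hb.ne_one e
  have hsqfree : ∀ r : ℕ, r.Prime → ¬ r ^ 2 ∣ k := by
    intro r hr hrk
    haveI := Fact.mk hr
    rw [← hKcard] at hrk
    obtain ⟨B, hB⟩ := Sylow.exists_subgroup_card_pow_prime r hrk
    haveI hBc : IsMulCommutative B := isMulCommutative_iff.mpr
      (IsPGroup.commutative_of_card_eq_prime_sq hB)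
    refine hcyc (B.map K.subtype) (Subgroup.map_subtype_le _) (Or.inl ?_) r r hr hr
      (by rw [Subgroup.card_map_of_injective K.subtype_injective, hB, pow_two])
    refine isMulCommutative_iff.mpr fun u v => ?_
    obtain ⟨u', hu⟩ := u.2
    obtain ⟨v', hv⟩ := v.2
    refine Subtype.ext ?_
    show (u : G) * v = v * u
    rw [← hu.2, ← hv.2, ← map_mul, ← map_mul]
    exact congrArg K.subtype (congrArg Subtype.val (isMulCommutative_iff.mp hBc ⟨u', hu.1⟩ ⟨v', hv.1⟩))
  obtain ⟨r, hr, hrk⟩ := Nat.exists_prime_and_dvd hk1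
  obtain ⟨m, hm⟩ := hrk
  by_cases hm1 : m = 1
  · rw [hm, hm1, mul_one]; exact hr
  exfalso
  obtain ⟨r', hr', m', hm'⟩ : ∃ r', r'.Prime ∧ ∃ m', m = r' * m' := by
    obtain ⟨r', hr', h⟩ := Nat.exists_prime_and_dvd hm1
    exact ⟨r', hr', h⟩
  have hkG : k ∣ Nat.card G := hKcard ▸ Subgroup.card_subgroup_dvd_card K
  by_cases hm'1 : m' = 1
  · exact hcyc K le_rfl (Or.inr ⟨r, r', hr, hr', by rw [hKcard, hm, hm', hm'1, mul_one]⟩) r r' hr hr'
      (by rw [hKcard, hm, hm', hm'1, mul_one])
  obtain ⟨r'', hr'', m'', hm''⟩ : ∃ r'', r''.Prime ∧ ∃ m'', m' = r'' * m'' := by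
    obtain ⟨r'', hr'', h⟩ := Nat.exists_prime_and_dvd hm'1
    exact ⟨r'', hr'', h⟩
  have hfac : k = r * r' * r'' * m'' := by rw [hm, hm', hm'']; ring
  have hdiv : ∀ x, x.Prime → x ∣ k → x = p ∨ x = q := fun x hx hxk =>
    (hpr x hx (hxk.trans hkG)).resolve_left fun e => hkodd (e ▸ hxk)
  rcases eq_or_ne r r' with e | e
  · exact hsqfree r hr ⟨r'' * m'', by rw [hfac, e]; ring⟩
  rcases eq_or_ne r r'' with e' | e'
  · exact hsqfree r hr ⟨r' * m'', by rw [hfac, e']; ring⟩
  rcases eq_or_ne r' r'' with e'' | e''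
  · exact hsqfree r' hr' ⟨r * m'', by rw [hfac, e'']; ring⟩
  have a1 := hdiv r hr ⟨r' * r'' * m'', by rw [hfac]; ring⟩
  have a2 := hdiv r' hr' ⟨r * r'' * m'', by rw [hfac]; ring⟩
  have a3 := hdiv r'' hr'' ⟨r * r' * m'', by rw [hfac]; ring⟩
  omega

theorem order_eq_sixty (hd : FourData G) (hns : ¬ Group.IsSolvable G) {p q : ℕ} (hp : p.Prime)
    (hq : q.Prime) (hpq : p ≠ q) (hp2 : p ≠ 2) (hq2 : q ≠ 2) (h2 : 2 ∣ Nat.card G)
    (hpd : p ∣ Nat.card G) (hqd : q ∣ Nat.card G)
    (hpr : ∀ s : ℕ, s.Prime → s ∣ Nat.card G → s = 2 ∨ s = p ∨ s = q) : Nat.card G = 60 := by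
  classical
  haveI : Fact (Nat.Prime 2) := ⟨Nat.prime_two⟩
  haveI := Fact.mk hp
  haveI := Fact.mk hq
  obtain ⟨S⟩ := (inferInstance : Nonempty (Sylow 2 G))
  obtain ⟨P⟩ := (inferInstance : Nonempty (Sylow p G))
  obtain ⟨Q⟩ := (inferInstance : Nonempty (Sylow q G))
  obtain ⟨hsq, hTI, hs4, hE, hkp, hN⟩ := hd.sylow_two hns hp hq hp2 hq2 h2 hpr S
  have htot := hd.card_eq_one_add Nat.prime_two hp hq hp2.symm hq2.symm hpq hpr
  have hprod : Nat.card G = Nat.card S * Nat.card P * Nat.card Q := by
    conv_lhs => rw [← Nat.prod_factorization_pow_eq_self (Nat.card_pos (α := G)).ne']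
    have hsub : (Nat.card G).factorization.support = {2, p, q} := by
      rw [Nat.support_factorization]
      ext r
      rw [Nat.mem_primeFactors]
      constructor
      · rintro ⟨hr, hrd, -⟩
        rcases hpr r hr hrd with e | e | e <;> simp [e]
      · intro hr
        simp only [Finset.mem_insert, Finset.mem_singleton] at hr
        rcases hr with e | e | e <;> subst e
        · exact ⟨Nat.prime_two, h2, Nat.card_pos.ne'⟩
        · exact ⟨hp, hpd, Nat.card_pos.ne'⟩
        · exact ⟨hq, hqd, Nat.card_pos.ne'⟩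
    rw [Finsupp.prod, hsub, Finset.prod_insert (by simp [hp2.symm, hq2.symm]),
      Finset.prod_pair hpq, S.card_eq_multiplicity, P.card_eq_multiplicity, Q.card_eq_multiplicity,
      mul_assoc]
  have hPpow : ∃ i, Nat.card P = p ^ (i + 1) := by
    obtain ⟨n, hn⟩ := P.isPGroup'.exists_card_eq
    rcases n with _ | n
    · exfalso
      have := Nat.le_of_dvd Nat.card_pos (P.dvd_card_of_dvd_card hpd)
      have := hp.two_le
      rw [pow_zero] at hn; omega
    · exact ⟨n, hn⟩
  have hQpow : ∃ i, Nat.card Q = q ^ (i + 1) := by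
    obtain ⟨n, hn⟩ := Q.isPGroup'.exists_card_eq
    rcases n with _ | n
    · exfalso
      have := Nat.le_of_dvd Nat.card_pos (Q.dvd_card_of_dvd_card hqd)
      have := hq.two_le
      rw [pow_zero] at hn; omega
    · exact ⟨n, hn⟩
  have hP3 : 3 ≤ Nat.card P := by
    obtain ⟨i, hi⟩ := hPpow
    have := hp.two_le
    calc 3 ≤ p := by omega
      _ ≤ Nat.card P := hi ▸ Nat.le_self_pow (by omega) p
  have hQ3 : 3 ≤ Nat.card Q := by
    obtain ⟨i, hi⟩ := hQpow
    have := hq.two_le
    calc 3 ≤ q := by omega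
      _ ≤ Nat.card Q := hi ▸ Nat.le_self_pow (by omega) q
  have hG25 : 25 ≤ Nat.card G := by
    rw [hprod]
    calc 25 ≤ 4 * 3 * 3 := by norm_num
      _ ≤ _ := Nat.mul_le_mul (Nat.mul_le_mul hs4 hP3) hQ3
  have hprq : ∀ s : ℕ, s.Prime → s ∣ Nat.card G → s = q ∨ s = 2 ∨ s = p := fun s hs hd => by
    have := hpr s hs hd; tauto
  have hprp : ∀ s : ℕ, s.Prime → s ∣ Nat.card G → s = p ∨ s = 2 ∨ s = q := fun s hs hd => by
    have := hpr s hs hd; tauto
  have hnp := hd.two_or_three_mul_le hns hp2 Nat.prime_two hq hprp P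
  have hnq := hd.two_or_three_mul_le hns hq2 Nat.prime_two hp hprq Q
  set s := Nat.card S with hs_def
  set E2 := Nat.card {x : G // orderOf x = 2}
  -- exactly one odd prime has an abelian Sylow subgroup with automiser of order two
  have one_side : ∀ {p q : ℕ} [Fact p.Prime] [Fact q.Prime], p ≠ 2 → q ≠ 2 → p ≠ q →
      (∀ s : ℕ, s.Prime → s ∣ Nat.card G → s = 2 ∨ s = p ∨ s = q) →
      ∀ (P : Sylow p G) (Q : Sylow q G),
      Nat.card G = s * Nat.card P * Nat.card Q → 3 ≤ Nat.card Q →
      Nat.card G = 1 + E2 + Nat.card {x : G // orderOf x = p} + Nat.card {x : G // orderOf x = q} →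
      ((P : Subgroup G).relIndex (Subgroup.normalizer ((P : Subgroup G) : Set G)) = 2 ∧
        IsMulCommutative (P : Subgroup G)) →
      3 * Nat.card {x : G // orderOf x = q} * Nat.card Q ≤ Nat.card G * (Nat.card Q - 1) → False := by
    intro p q hpF hqF hp2 hq2 hpq hpr P Q hprod hQ3 htot hP hq3
    have cP := hd.card_orderOf_eq P
    have hzP : Subgroup.center (P : Subgroup G) = ⊤ := eq_top_iff.mpr fun u _ =>
      Subgroup.mem_center_iff.mpr fun g => isMulCommutative_iff.mp hP.2 g u
    rw [hzP, Subgroup.card_top, hP.1] at cP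
    set Ep := Nat.card {x : G // orderOf x = p}
    set Eq' := Nat.card {x : G // orderOf x = q} with hEq
    set a := Nat.card P
    set b := Nat.card Q
    set n := Nat.card G
    have ha : 0 < a := Nat.card_pos
    have hb : 0 < b := Nat.card_pos
    have hEp : 2 * Ep < n := by
      refine Nat.lt_of_mul_lt_mul_right (a := a) ?_
      calc 2 * Ep * a = (a - 1) * n := by rw [← cP]; ring
        _ < a * n := Nat.mul_lt_mul_of_pos_right (by omega) Nat.card_pos
        _ = n * a := mul_comm _ _
    have hEq3 : 3 * Eq' < n := by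
      refine Nat.lt_of_mul_lt_mul_right (a := b) ?_
      calc 3 * Eq' * b ≤ n * (b - 1) := hq3
        _ < n * b := Nat.mul_lt_mul_of_pos_left (by omega) Nat.card_pos
    -- `|S| = 4`
    have hs : s = 4 := by
      by_contra hne
      have h8 : 8 ≤ s := by
        obtain ⟨i, hi⟩ := S.isPGroup'.exists_card_eq
        have hi' : s = 2 ^ i := hi
        rcases i with _ | _ | _ | i
        · simp at hi'; omega
        · simp at hi'; omega
        · simp at hi'; omega
        · rw [hi', pow_succ, pow_succ, pow_succ]; have := Nat.one_le_two_pow (n := i); omega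
      have : 8 * E2 ≤ n := (Nat.mul_le_mul_right _ h8).trans (le_of_eq (by rw [mul_comm, hE]))
      omega
    have hn : n = 4 * (a * b) := by rw [hprod, hs, mul_assoc]
    have hE2 : E2 = a * b := by rw [hs] at hE; rw [hn] at hE; omega
    have hEp' : Ep + 2 * b = 2 * (a * b) := by
      have h : Ep * (2 * a) + n = a * n := by
        rw [cP, Nat.sub_one_mul]; exact Nat.sub_add_cancel (Nat.le_mul_of_pos_left _ ha)
      rw [hn] at h
      refine Nat.eq_of_mul_eq_mul_left (by omega : 0 < 2 * a) ?_
      calc 2 * a * (Ep + 2 * b) = Ep * (2 * a) + 4 * (a * b) := by ring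
        _ = a * (4 * (a * b)) := h
        _ = 2 * a * (2 * (a * b)) := by ring
    have hEq' : Eq' + 1 = a * b + 2 * b := by omega
    have h4 : n < 4 * Eq' := by omega
    have cQ := hd.card_orderOf_eq Q
    set k := (Q : Subgroup G).relIndex (Subgroup.normalizer ((Q : Subgroup G) : Set G)) with hk
    set z := Nat.card (Subgroup.center (Q : Subgroup G))
    have hk0 : 1 ≤ k := Nat.pos_of_ne_zero Subgroup.index_ne_zero_of_finite
    by_cases hc : IsMulCommutative (Q : Subgroup G)
    swap
    · have hz := sq_mul_center_le Q.isPGroup' hc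
      have hq3' : 3 ≤ q := by have := (Fact.out : q.Prime).two_le; omega
      have hz' : 9 * z ≤ b := (Nat.mul_le_mul_right _ (by nlinarith : 9 ≤ q ^ 2)).trans hz
      have : 9 * Eq' * b ≤ n * b := by
        calc 9 * Eq' * b ≤ 9 * (Eq' * (k * b)) := by
              rw [mul_assoc]
              exact Nat.mul_le_mul_left _ (Nat.mul_le_mul_left _ (Nat.le_mul_of_pos_left _ hk0))
          _ = 9 * (z - 1) * n := by rw [cQ, mul_assoc]
          _ ≤ b * n := Nat.mul_le_mul_right _ (by omega)
          _ = n * b := mul_comm _ _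
      have := Nat.le_of_mul_le_mul_right this hb
      omega
    have hzb : z = b := by
      have : Subgroup.center (Q : Subgroup G) = ⊤ := eq_top_iff.mpr fun u _ =>
        Subgroup.mem_center_iff.mpr fun g => isMulCommutative_iff.mp hc g u
      show Nat.card (Subgroup.center (Q : Subgroup G)) = _
      rw [this, Subgroup.card_top]
    rw [hzb] at cQ
    have hk1 : k ≠ 1 := fun e => not_comm_of_relIndex_one Q hns Nat.prime_two (Fact.out : p.Prime)
      (fun r hr hrd => by have := hpr r hr hrd; tauto) e hc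
    have hk3 : k ≤ 3 := by
      by_contra hcon
      have h' : 4 * Eq' * b ≤ (b - 1) * n := by
        rw [← cQ]
        calc 4 * Eq' * b ≤ k * Eq' * b := Nat.mul_le_mul_right _ (Nat.mul_le_mul_right _ (by omega))
          _ = _ := by ring
      have : 4 * Eq' < n := Nat.lt_of_mul_lt_mul_right (a := b) (lt_of_le_of_lt h'
        (by rw [mul_comm n b]; exact Nat.mul_lt_mul_of_pos_right (by omega) Nat.card_pos))
      omega
    have hk3' : k = 3 := by
      rcases (show k = 2 ∨ k = 3 by omega) with e | e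
      · rw [e] at cQ
        have h1 : Eq' + 2 * a = 2 * (a * b) := by
          have h : Eq' * (2 * b) + n = b * n := by
            rw [cQ, Nat.sub_one_mul]; exact Nat.sub_add_cancel (Nat.le_mul_of_pos_left _ hb)
          rw [hn] at h
          refine Nat.eq_of_mul_eq_mul_left (by omega : 0 < 2 * b) ?_
          calc 2 * b * (Eq' + 2 * a) = Eq' * (2 * b) + 4 * (a * b) := by ring
            _ = b * (4 * (a * b)) := h
            _ = 2 * b * (2 * (a * b)) := by ring
        -- contradicts `3 * Eq' * b ≤ n * (b - 1)`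
        have : 3 * Eq' ≤ 2 * Eq' := by
          refine Nat.le_of_mul_le_mul_right (c := b) ?_ hb
          calc 3 * Eq' * b ≤ n * (b - 1) := hq3
            _ = 2 * Eq' * b := by rw [mul_comm n, ← cQ]; ring
        omega
      · exact e
    rw [hk3'] at cQ
    have h3 : 3 * Eq' + 4 * a = 4 * (a * b) := by
      have h : Eq' * (3 * b) + n = b * n := by
        rw [cQ, Nat.sub_one_mul]; exact Nat.sub_add_cancel (Nat.le_mul_of_pos_left _ hb)
      rw [hn] at h
      refine Nat.eq_of_mul_eq_mul_left hb ?_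
      calc b * (3 * Eq' + 4 * a) = Eq' * (3 * b) + 4 * (a * b) := by ring
        _ = b * (4 * (a * b)) := h
    -- so `ab + 3 = 4a + 6b`
    have hp3 : p = 3 := by
      have h3G : 3 ∣ Nat.card G := hk3' ▸ (hk ▸
        (Subgroup.index_dvd_card _).trans (Subgroup.card_subgroup_dvd_card _))
      rcases hpr 3 Nat.prime_three h3G with e | e | e
      · omega
      · exact e.symm
      · exfalso
        subst e
        have h3k : ¬ (3 : ℕ) ∣ k := by
          rw [hk]
          intro hd'
          exact Q.not_dvd_index (hd'.trans (Subgroup.relIndex_dvd_index_of_le Subgroup.le_normalizer))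
        exact h3k (hk3' ▸ dvd_rfl)
    obtain ⟨a', ha'⟩ : 3 ∣ a := hp3 ▸ P.dvd_card_of_dvd_card (hp3 ▸
      (hk3' ▸ (hk ▸ (Subgroup.index_dvd_card _).trans (Subgroup.card_subgroup_dvd_card _)) : 3 ∣ Nat.card G))
    -- an element of order three of the normaliser acts semiregularly on `Q`
    have hb3 : b % 3 = 1 := by
      haveI : Fact (Nat.Prime 3) := ⟨Nat.prime_three⟩
      set N := Subgroup.normalizer ((Q : Subgroup G) : Set G) with hNdef
      obtain ⟨h, hho⟩ := exists_prime_orderOf_dvd_card' (G := N) 3 (by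
        rw [← hk3', hk]; exact Subgroup.index_dvd_card _)
      let act : MulAction (Subgroup.zpowers h) (Q : Subgroup G) :=
        MulAction.compHom _ ((Subgroup.normalizerMonoidHom (Q : Subgroup G)).comp
          (Subgroup.zpowers h).subtype)
      have hpg : IsPGroup 3 (Subgroup.zpowers h) :=
        IsPGroup.of_card (n := 1) (by rw [Nat.card_zpowers, hho, pow_one])
      have hmod := hpg.card_modEq_card_fixedPoints (Q : Subgroup G)
      have hfix : MulAction.fixedPoints (Subgroup.zpowers h) (Q : Subgroup G) = {1} := by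
        ext u
        simp only [MulAction.mem_fixedPoints, Set.mem_singleton_iff]
        constructor
        · intro hu
          by_contra hu1
          have h1 := congrArg Subtype.val (hu ⟨h, Subgroup.mem_zpowers h⟩)
          have h2 : (h : G) * (u : G) * (h : G)⁻¹ = u := h1
          obtain ⟨huo, huC⟩ := hd.centralizer_eq_of_mem_center Q
            (Subgroup.mem_center_iff.mpr fun g => isMulCommutative_iff.mp hc g u) hu1
          have hhQ : (h : G) ∈ (Q : Subgroup G) := by
            rw [← huC]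
            exact Subgroup.mem_centralizer_singleton_iff.mpr (mul_inv_eq_iff_eq_mul.mp h2)
          have d := Subgroup.orderOf_dvd_natCard (Q : Subgroup G) hhQ
          rw [Subgroup.orderOf_coe, hho] at d
          obtain ⟨j, hj⟩ := Q.isPGroup'.exists_card_eq
          rw [hj] at d
          have := (Nat.prime_dvd_prime_iff_eq Nat.prime_three (Fact.out : q.Prime)).mp
            (Nat.prime_three.dvd_of_dvd_pow d)
          omega
        · rintro rfl g
          exact map_one ((Subgroup.normalizerMonoidHom (Q : Subgroup G)) g.1)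
      rw [hfix, Nat.card_eq_fintype_card (α := ({1} : Set (Q : Subgroup G)))] at hmod
      simp at hmod
      exact hmod
    obtain ⟨b', hb'⟩ : ∃ b', b = 3 * b' + 1 := ⟨b / 3, by omega⟩
    have hkey : a * b + 3 = 4 * a + 6 * b := by omega
    rw [ha', hb'] at hkey
    ring_nf at hkey
    omega
  rcases hnp with hP | hP <;> rcases hnq with hQ | hQ
  rotate_left
  · exact (one_side hp2 hq2 hpq hpr P Q hprod hQ3 htot hP hQ).elim
  · exact (one_side hq2 hp2 hpq.symm (fun r hr hrd => by have := hpr r hr hrd; tauto) Q P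
      (by rw [hprod]; ring) hP3 (by rw [htot]; ring) hQ hP).elim
  · exfalso
    have h1 : 3 * Nat.card {x : G // orderOf x = p} < Nat.card G := by
      refine Nat.lt_of_mul_lt_mul_right (a := Nat.card P) ?_
      calc _ ≤ Nat.card G * (Nat.card P - 1) := hP
        _ < _ := Nat.mul_lt_mul_of_pos_left (by omega) Nat.card_pos
    have h2' : 3 * Nat.card {x : G // orderOf x = q} < Nat.card G := by
      refine Nat.lt_of_mul_lt_mul_right (a := Nat.card Q) ?_
      calc _ ≤ Nat.card G * (Nat.card Q - 1) := hQ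
        _ < _ := Nat.mul_lt_mul_of_pos_left (by omega) Nat.card_pos
    have : 4 * E2 ≤ Nat.card G := (Nat.mul_le_mul_right _ hs4).trans (le_of_eq (by rw [mul_comm, hE]))
    omega
  -- both automisers have order two: `|G| = |S| (|S| - 1) (|S| + 1)`
  have both : ∀ {p q : ℕ} [Fact p.Prime] [Fact q.Prime], q ≠ 2 → p ≠ q → s - 1 = p →
      ∀ (P : Sylow p G) (Q : Sylow q G), Nat.card G = s * Nat.card P * Nat.card Q →
      Nat.card G = 1 + E2 + Nat.card {x : G // orderOf x = p} + Nat.card {x : G // orderOf x = q} →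
      ((P : Subgroup G).relIndex (Subgroup.normalizer ((P : Subgroup G) : Set G)) = 2 ∧
        IsMulCommutative (P : Subgroup G)) →
      ((Q : Subgroup G).relIndex (Subgroup.normalizer ((Q : Subgroup G) : Set G)) = 2 ∧
        IsMulCommutative (Q : Subgroup G)) → Nat.card G = 60 := by
    intro p q hpF hqF hq2 hpq hsp P Q hprod htot hP hQ
    have hcount : ∀ {r : ℕ} [Fact r.Prime] (R : Sylow r G),
        ((R : Subgroup G).relIndex (Subgroup.normalizer ((R : Subgroup G) : Set G)) = 2 ∧
          IsMulCommutative (R : Subgroup G)) →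
        Nat.card {x : G // orderOf x = r} * (2 * Nat.card R) + Nat.card G = Nat.card R * Nat.card G := by
      intro r _ R hR
      have c := hd.card_orderOf_eq R
      have hz : Subgroup.center (R : Subgroup G) = ⊤ := eq_top_iff.mpr fun u _ =>
        Subgroup.mem_center_iff.mpr fun g => isMulCommutative_iff.mp hR.2 g u
      rw [hz, Subgroup.card_top, hR.1] at c
      rw [c, Nat.sub_one_mul]
      exact Nat.sub_add_cancel (Nat.le_mul_of_pos_left _ Nat.card_pos)
    have cP := hcount P hP
    have cQ := hcount Q hQ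
    obtain ⟨i, hi⟩ := P.isPGroup'.exists_card_eq
    obtain ⟨j, hj⟩ := Q.isPGroup'.exists_card_eq
    have hp := (Fact.out : p.Prime)
    have hq := (Fact.out : q.Prime)
    set a := Nat.card P with ha_def
    set b := Nat.card Q with hb_def
    set n := Nat.card G with hn_def
    set Ep := Nat.card {x : G // orderOf x = p}
    set Eq' := Nat.card {x : G // orderOf x = q}
    have ha : 0 < a := Nat.card_pos
    have hb : 0 < b := Nat.card_pos
    have e2 : E2 = a * b := Nat.eq_of_mul_eq_mul_right (by omega : 0 < s) (by rw [hE, hprod]; ring)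
    have ep : 2 * Ep + s * b = s * (a * b) := by
      refine Nat.eq_of_mul_eq_mul_left ha ?_
      calc a * (2 * Ep + s * b) = Ep * (2 * a) + s * a * b := by ring
        _ = a * n := by rw [← hprod]; exact cP
        _ = a * (s * (a * b)) := by rw [hprod]; ring
    have eq : 2 * Eq' + s * a = s * (a * b) := by
      refine Nat.eq_of_mul_eq_mul_left hb ?_
      calc b * (2 * Eq' + s * a) = Eq' * (2 * b) + s * a * b := by ring
        _ = b * n := by rw [← hprod]; exact cQ
        _ = b * (s * (a * b)) := by rw [hprod]; ring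
    have hkey : s * a + s * b = 2 + 2 * (a * b) := by
      rw [mul_assoc] at hprod
      omega
    have hs' : s = p + 1 := by omega
    -- `p` divides `|G|` exactly once
    have hi1 : i = 1 := by
      have hpa : p ∣ a := P.dvd_card_of_dvd_card (by
        rw [← hsp]
        exact (Dvd.intro_left _ hN.symm).trans (Subgroup.card_subgroup_dvd_card _))
      rcases i with _ | _ | i
      · rw [pow_zero] at hi; rw [hi] at hpa; exact absurd (Nat.dvd_one.mp hpa) hp.ne_one
      · rfl
      exfalso
      have hA : p * p ≤ a := by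
        rw [hi, pow_succ, pow_succ, mul_assoc]
        exact Nat.le_mul_of_pos_left _ (pow_pos hp.pos i)
      rw [hs'] at hkey
      have hp3 : 3 ≤ p := by omega
      rcases le_or_gt (p + 3) (2 * b) with h | h
      · obtain ⟨d, hd'⟩ := Nat.exists_eq_add_of_le h
        have e1 : 2 * (a * (d + 2)) + 4 = (p + 1) * (p + 3 + d) := by
          have h2 : a * (2 * b) = a * (p + 3 + d) := by rw [hd']
          have h3 : (p + 1) * (2 * b) = (p + 1) * (p + 3 + d) := by rw [hd']
          nlinarith
        nlinarith [Nat.mul_le_mul_right (d + 2) hA, Nat.mul_le_mul_left p hp3,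
          Nat.mul_le_mul_left d (show p + 1 ≤ 2 * (p * p) by nlinarith)]
      · rcases (show 2 * b ≤ p + 1 ∨ 2 * b = p + 2 by omega) with h' | h'
        · nlinarith [Nat.mul_le_mul_left a h']
        · have h2 : a * (2 * b) = a * (p + 2) := by rw [h']
          have h3 : (p + 1) * (2 * b) = (p + 1) * (p + 2) := by rw [h']
          nlinarith
    rw [hi1, pow_one] at hi
    have hb2 : b = p + 2 := by
      rw [hs', hi] at hkey
      have hp1 : 2 ≤ p := hp.two_le
      nlinarith
    -- now `2 ^ n - 1` is prime and `2 ^ n + 1` is a prime power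
    obtain ⟨m, hm⟩ := S.isPGroup'.exists_card_eq
    have hm' : s = 2 ^ m := hm
    have hm2 : 2 ≤ m := by
      by_contra hlt
      interval_cases m <;> simp at hm' <;> omega
    by_cases hm22 : m = 2
    · subst hm22
      rw [hprod, hm', hi, hb2]
      have : p = 3 := by omega
      subst this; norm_num
    exfalso
    -- hence `m` is odd and `q = 3`
    have hmodd : Odd m := by
      by_contra he
      obtain ⟨l, hl⟩ := Nat.not_odd_iff_even.mp he
      have h3 : s % 3 = 1 := by
        rw [hm', hl, ← two_mul, pow_mul, Nat.pow_mod]; norm_num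
      have h3p : 3 ∣ p := by omega
      have hp3 : p = 3 := ((Nat.prime_dvd_prime_iff_eq Nat.prime_three hp).mp h3p).symm
      have h4 : s = 4 := by omega
      rw [h4, show (4 : ℕ) = 2 ^ 2 from rfl] at hm'
      exact hm22 (Nat.pow_right_injective le_rfl hm').symm
    have hq3 : q = 3 := by
      obtain ⟨l, hl⟩ := hmodd
      have h3 : s % 3 = 2 := by
        rw [hm', hl, pow_succ, pow_mul, Nat.mul_mod, Nat.pow_mod]; norm_num
      have : 3 ∣ q ^ j := by rw [← hj]; omega
      exact ((Nat.prime_dvd_prime_iff_eq Nat.prime_three hq).mp (Nat.prime_three.dvd_of_dvd_pow this)).symm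
    subst hq3
    have h8 : 8 ∣ s := by
      rw [hm', show (8 : ℕ) = 2 ^ 3 from rfl]; exact pow_dvd_pow 2 (by omega)
    obtain ⟨l, hl⟩ : Even j := by
      by_contra he
      obtain ⟨l, hl⟩ := Nat.not_even_iff_odd.mp he
      have : (3 ^ j) % 8 = 3 := by rw [hl, pow_succ, pow_mul, Nat.mul_mod, Nat.pow_mod]; norm_num
      omega
    have hfac : (3 ^ l - 1) * (3 ^ l + 1) = s := by
      have h1 : 1 ≤ 3 ^ l := Nat.one_le_pow _ _ (by norm_num)
      obtain ⟨c, hc⟩ : ∃ c, 3 ^ l = c + 1 := ⟨3 ^ l - 1, by omega⟩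
      have : (c + 1) * (c + 1) = s + 1 := by rw [← hc, ← pow_add, ← hl, ← hj]; omega
      rw [hc, Nat.add_sub_cancel]
      nlinarith
    obtain ⟨u, -, hu⟩ := (Nat.dvd_prime_pow Nat.prime_two).mp
      (show 3 ^ l - 1 ∣ 2 ^ m from hm' ▸ Dvd.intro _ hfac)
    obtain ⟨v, -, hv⟩ := (Nat.dvd_prime_pow Nat.prime_two).mp
      (show 3 ^ l + 1 ∣ 2 ^ m from hm' ▸ Dvd.intro_left _ hfac)
    have hl1 : l = 1 := by
      have h1 : 1 ≤ 3 ^ l := Nat.one_le_pow _ _ (by norm_num)
      have huv : 2 ^ u + 2 = 2 ^ v := by omega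
      have hu1 : u = 1 := by
        rcases u with _ | _ | u
        · rcases v with _ | _ | v <;> simp [pow_succ] at huv <;> omega
        · rfl
        · rcases v with _ | _ | v <;> simp [pow_succ] at huv <;> omega
      rw [hu1, pow_one] at hu
      have : 3 ^ l = 3 ^ 1 := by omega
      exact Nat.pow_right_injective (by norm_num) this
    subst hl1
    have hs8 : s = 8 := by rw [← hfac]; norm_num
    have hp7 : p = 7 := by omega
    have hb9 : b = 9 := by omega
    -- the configuration of order 504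
    set NQ := Subgroup.normalizer ((Q : Subgroup G) : Set G) with hNQ
    haveI : Fact (Nat.Prime 2) := ⟨Nat.prime_two⟩
    obtain ⟨t, hto⟩ := exists_prime_orderOf_dvd_card' (G := NQ) 2 (by
      rw [← hQ.1]; exact Subgroup.index_dvd_card _)
    have hto' : orderOf (t : G) = 2 := by rw [Subgroup.orderOf_coe]; exact hto
    have ht1 : (t : G) ≠ 1 := fun e => by rw [e, orderOf_one] at hto'; omega
    have htp : IsPGroup 2 (Subgroup.zpowers (t : G)) :=
      IsPGroup.of_card (n := 1) (by rw [Nat.card_zpowers, hto', pow_one])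
    obtain ⟨S', hS'⟩ := htp.exists_le_sylow
    obtain ⟨hsq', hTI', -, -, -, hN'⟩ := hd.sylow_two hns hp hq (by omega) (by norm_num) h2
      (fun r hr hrd => by
        have := hpr r hr hrd
        rw [← hn_def, hprod, hs8, hi, hp7, hb9] at hrd
        have h' : r ∣ 2 ^ 3 * (7 * 3 ^ 2) := by norm_num; norm_num at hrd; exact hrd
        rcases (Nat.Prime.dvd_mul hr).mp h' with h | h
        · exact Or.inl ((Nat.prime_dvd_prime_iff_eq hr Nat.prime_two).mp (hr.dvd_of_dvd_pow h))
        · rcases (Nat.Prime.dvd_mul hr).mp h with h | h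
          · exact Or.inr (Or.inl (((Nat.prime_dvd_prime_iff_eq hr (by norm_num)).mp h).trans hp7.symm))
          · exact Or.inr (Or.inr ((Nat.prime_dvd_prime_iff_eq hr Nat.prime_three).mp (hr.dvd_of_dvd_pow h))))
      S'
    have hS'card : Nat.card (S' : Subgroup G) = 8 := by
      rw [← hs8, hs_def, S'.card_eq_multiplicity, S.card_eq_multiplicity]
    refine no_group_of_order_504 hd.ord (by rw [← hn_def, hprod, hs8, hi, hp7, hb9]) hS'card hb9
      (by rw [hN', hS'card]) hTI' hsq' (hS' (Subgroup.mem_zpowers _)) ht1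
      (fun x hx y hy => congrArg Subtype.val (isMulCommutative_iff.mp hQ.2 ⟨x, hx⟩ ⟨y, hy⟩))
      (fun x hx => ?_) (fun x hx => ?_)
    · rcases hd.ord x with e | e
      · rw [e, one_pow]
      · have d := Subgroup.orderOf_dvd_natCard (Q : Subgroup G) hx
        rw [show Nat.card (Q : Subgroup G) = 3 ^ 2 from hb9] at d
        rw [← (Nat.prime_dvd_prime_iff_eq e Nat.prime_three).mp (e.dvd_of_dvd_pow d), pow_orderOf_eq_one]
    · let φ : MulAut (Q : Subgroup G) := Subgroup.normalizerMonoidHom (Q : Subgroup G) t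
      have hff : MonoidHom.FixedPointFree φ := by
        intro u hu
        by_contra hne
        have h1 : (t : G) * (u : G) * (t : G)⁻¹ = u := congrArg Subtype.val hu
        obtain ⟨huo, huC⟩ := hd.centralizer_eq_of_mem_center Q
          (Subgroup.mem_center_iff.mpr fun g => isMulCommutative_iff.mp hQ.2 g u) hne
        have htQ : (t : G) ∈ (Q : Subgroup G) := by
          rw [← huC]
          exact Subgroup.mem_centralizer_singleton_iff.mpr (mul_inv_eq_iff_eq_mul.mp h1)
        have d := Subgroup.orderOf_dvd_natCard (Q : Subgroup G) htQ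
        rw [hto', show Nat.card (Q : Subgroup G) = 3 ^ 2 from hb9] at d
        exact absurd (Nat.prime_two.dvd_of_dvd_pow d) (by norm_num)
      have hinvol : Function.Involutive φ := fun u => by
        show φ (φ u) = u
        rw [← MulAut.mul_apply, ← map_mul, ← pow_two, ← hto, pow_orderOf_eq_one, map_one,
          MulAut.one_apply]
      exact congrArg Subtype.val (congrFun (hff.coe_eq_inv_of_involutive hinvol) ⟨x, hx⟩)
  -- `|S| - 1` is one of the odd primes
  have hdvd : s - 1 ∣ Nat.card G := (Dvd.intro_left _ hN.symm).trans (Subgroup.card_subgroup_dvd_card _)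
  rcases hpr _ hkp hdvd with e | e | e
  · omega
  · exact both hq2 hpq e P Q hprod htot hP hQ
  · exact both hp2 hpq.symm e Q P (by rw [hprod]; ring) (by rw [htot]; ring) hQ hP

end FourData

end Cfsg.Agent.FGS75
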