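import Mathlib
import Cfsg.Agent.DerivedLen.SymSylow

/-!
Sylow `p`-subgroups of `GL(n, q)`, `p` odd and prime to `q`: derived length.
-/

set_option autoImplicit false

open scoped commutatorElement Nat

namespace Cfsg.Agent.FGS75.GLSylow

variable (ι : Type*) (C : Type*) [CommGroup C]

/-- The wreath product `C ≀ Sym ι` as a group of permutations of `ι × C`. -/
def wreath : Subgroup (Equiv.Perm (ι × C)) :=
  Subgroup.centralizer (Set.range fun d : C => Equiv.prodCongr (Equiv.refl ι) (Equiv.mulRight d))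

variable {ι C}

theorem wreath_apply {σ : Equiv.Perm (ι × C)} (hσ : σ ∈ wreath ι C) (i : ι) (c : C) :
    σ (i, c) = ((σ (i, 1)).1, (σ (i, 1)).2 * c) := by
  have h := Equiv.congr_fun (Subgroup.mem_centralizer_iff.mp hσ _ ⟨c, rfl⟩) (i, 1)
  simp at h
  exact h.symm

theorem mem_wreath {σ : Equiv.Perm (ι × C)}
    (h : ∀ i c, σ (i, c) = ((σ (i, 1)).1, (σ (i, 1)).2 * c)) : σ ∈ wreath ι C := by
  rw [wreath, Subgroup.mem_centralizer_iff]
  rintro _ ⟨d, rfl⟩
  refine Equiv.ext fun ⟨i, c⟩ => ?_
  simp only [Equiv.Perm.mul_apply, Equiv.prodCongr_apply, Prod.map, Equiv.coe_refl, id,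
    Equiv.coe_mulRight]
  rw [h i (c * d), h i c, mul_assoc]

variable (ι C)

/-- The action on blocks. -/
def proj : wreath ι C →* Equiv.Perm ι :=
  MonoidHom.toHomPerm
    { toFun := fun σ i => ((σ : Equiv.Perm (ι × C)) (i, 1)).1
      map_one' := rfl
      map_mul' := fun σ τ => funext fun i => by
        show ((σ : Equiv.Perm (ι × C)) ((τ : Equiv.Perm (ι × C)) (i, 1))).1 = _
        rw [show (τ : Equiv.Perm (ι × C)) (i, 1) =
          (((τ : Equiv.Perm (ι × C)) (i, 1)).1, ((τ : Equiv.Perm (ι × C)) (i, 1)).2) from rfl,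
          wreath_apply σ.2]
        rfl }

theorem proj_apply (σ : wreath ι C) (i : ι) :
    proj ι C σ i = ((σ : Equiv.Perm (ι × C)) (i, 1)).1 := rfl

/-- Coordinates. -/
def wreathEquiv : wreath ι C ≃ Equiv.Perm ι × (ι → C) where
  toFun σ := (proj ι C σ, fun i => ((σ : Equiv.Perm (ι × C)) (i, 1)).2)
  invFun x := ⟨{ toFun := fun y => (x.1 y.1, x.2 y.1 * y.2)
                 invFun := fun y => (x.1.symm y.1, (x.2 (x.1.symm y.1))⁻¹ * y.2)
                 left_inv := fun y => by simp
                 right_inv := fun y => by simp },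
    mem_wreath fun i c => by simp⟩
  left_inv σ := Subtype.ext (Equiv.ext fun ⟨i, c⟩ => (wreath_apply σ.2 i c).symm)
  right_inv x := by
    refine Prod.ext (Equiv.ext fun i => rfl) (funext fun i => ?_)
    show x.2 i * 1 = x.2 i
    rw [mul_one]

theorem card_wreath [Finite ι] [Finite C] :
    Nat.card (wreath ι C) = (Nat.card ι)! * Nat.card C ^ Nat.card ι := by
  rw [Nat.card_congr (wreathEquiv ι C), Nat.card_prod, Nat.card_perm, Nat.card_fun]

theorem commute_of_mem_ker {σ τ : wreath ι C} (hσ : proj ι C σ = 1) (hτ : proj ι C τ = 1) :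
    σ * τ = τ * σ := by
  have hfix : ∀ ρ : wreath ι C, proj ι C ρ = 1 → ∀ i c, (ρ : Equiv.Perm (ι × C)) (i, c) =
      (i, ((ρ : Equiv.Perm (ι × C)) (i, 1)).2 * c) := by
    intro ρ hρ i c
    rw [wreath_apply ρ.2, ← proj_apply, hρ]
    rfl
  refine Subtype.ext (Equiv.ext fun ⟨i, c⟩ => ?_)
  simp only [Subgroup.coe_mul, Equiv.Perm.mul_apply]
  rw [hfix τ hτ i c, hfix σ hσ i c, hfix σ hσ i (((τ : Equiv.Perm (ι × C)) (i, 1)).2 * c),
    hfix τ hτ i (((σ : Equiv.Perm (ι × C)) (i, 1)).2 * c)]
  exact Prod.ext rfl (mul_left_comm _ _ _)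

variable {ι C}

/-- The monomial representation. -/
noncomputable def monomial (F : Type*) [Field F] {E : Type*} [AddCommGroup E] [Module F E]
    (θ : C →* Module.End F E) : wreath ι C →* Module.End F (ι → E) where
  toFun σ :=
    LinearMap.pi fun j => (θ (((σ⁻¹ : wreath ι C) : Equiv.Perm (ι × C)) (j, 1)).2⁻¹).comp
      (LinearMap.proj (((σ⁻¹ : wreath ι C) : Equiv.Perm (ι × C)) (j, 1)).1)
  map_one' := by
    refine LinearMap.ext fun v => funext fun j => ?_
    simp
  map_mul' σ τ := by
    refine LinearMap.ext fun v => funext fun j => ?_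
    simp only [LinearMap.pi_apply, LinearMap.comp_apply, LinearMap.proj_apply, Module.End.mul_apply]
    set x := ((σ⁻¹ : wreath ι C) : Equiv.Perm (ι × C)) (j, 1) with hx
    have h : (((σ * τ)⁻¹ : wreath ι C) : Equiv.Perm (ι × C)) (j, 1) =
        ((((τ⁻¹ : wreath ι C) : Equiv.Perm (ι × C)) (x.1, 1)).1,
          (((τ⁻¹ : wreath ι C) : Equiv.Perm (ι × C)) (x.1, 1)).2 * x.2) := by
      rw [mul_inv_rev, Subgroup.coe_mul, Equiv.Perm.mul_apply, ← hx,
        ← wreath_apply (τ⁻¹ : wreath ι C).2]
    rw [h, mul_inv_rev, map_mul, Module.End.mul_apply]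

theorem monomial_injective (F : Type*) [Field F] {E : Type*} [AddCommGroup E] [Module F E]
    [Nontrivial E] (θ : C →* Module.End F E) (hθ : Function.Injective θ) :
    Function.Injective (monomial (ι := ι) F θ) := by
  classical
  rw [← MonoidHom.ker_eq_bot_iff, Subgroup.eq_bot_iff_forall]
  intro σ hσ
  rw [MonoidHom.mem_ker] at hσ
  rw [← inv_inv σ, inv_eq_one]
  refine Subtype.ext (Equiv.ext fun ⟨j, c⟩ => ?_)
  rw [wreath_apply (σ⁻¹ : wreath ι C).2]
  set x := ((σ⁻¹ : wreath ι C) : Equiv.Perm (ι × C)) (j, 1) with hx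
  have hv : ∀ v : ι → E, θ x.2⁻¹ (v x.1) = v j := fun v =>
    congrFun (LinearMap.congr_fun hσ v) j
  have h1 : x.1 = j := by
    by_contra hne
    obtain ⟨e, he⟩ := exists_ne (0 : E)
    have := hv (Pi.single j e)
    rw [Pi.single_eq_of_ne hne, map_zero, Pi.single_eq_same] at this
    exact he this.symm
  have h2 : x.2⁻¹ = 1 := by
    refine hθ (LinearMap.ext fun e => ?_)
    have := hv (fun _ => e)
    rwa [map_one, Module.End.one_apply]
  rw [h1, inv_eq_one.mp h2, one_mul]
  rfl

/-- Units of `End (F^m)`, padded and in coordinates. -/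
theorem exists_pad (F : Type*) [Field F] {V : Type*} [AddCommGroup V] [Module F V]
    [FiniteDimensional F V] {n : ℕ} (hn : Module.finrank F V ≤ n) :
    ∃ g : (Module.End F V)ˣ →* Matrix.GeneralLinearGroup (Fin n) F, Function.Injective g := by
  let V' := V × (Fin (n - Module.finrank F V) → F)
  have hrank : Module.finrank F V' = Module.finrank F (Fin n → F) := by
    rw [Module.finrank_prod, Module.finrank_fin_fun, Module.finrank_fin_fun]
    omega
  let e : V' ≃ₗ[F] (Fin n → F) := LinearEquiv.ofFinrankEq _ _ hrank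
  let f : Module.End F V →* Module.End F V' :=
    { toFun := fun a => LinearMap.prodMap a LinearMap.id
      map_one' := LinearMap.ext fun x => rfl
      map_mul' := fun a b => LinearMap.ext fun x => rfl }
  let T : Matrix.GeneralLinearGroup (Fin n) F ≃* LinearMap.GeneralLinearGroup F (Fin n → F) :=
    Matrix.GeneralLinearGroup.toLin
  let μ : (Module.End F V')ˣ ≃* (Module.End F (Fin n → F))ˣ :=
    Units.mapEquiv (LinearEquiv.conjRingEquiv e).toMulEquiv
  refine ⟨T.symm.toMonoidHom.comp (μ.toMonoidHom.comp (Units.map f)), ?_⟩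
  refine T.symm.injective.comp (μ.injective.comp
    (Units.map_injective fun a b h => LinearMap.ext fun v => ?_))
  exact congrArg Prod.fst (LinearMap.congr_fun h (v, 0))

/-! ### The order of `GL(n, q)` -/

theorem padicValNat_prod_sub_one {p q e a : ℕ} [hp : Fact p.Prime] (hodd : Odd p) (hq : 2 ≤ q)
    (hpq : ¬ p ∣ q) (he : e = orderOf (q : ZMod p)) (he0 : e ≠ 0)
    (ha : a = padicValNat p (q ^ e - 1)) (n : ℕ) :
    padicValNat p (∏ i ∈ Finset.range n, (q ^ (i + 1) - 1)) = a * (n / e) + padicValNat p (n / e)! := by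
  have hne : ∀ m : ℕ, m ≠ 0 → q ^ m - 1 ≠ 0 := fun m hm => by
    have := Nat.one_lt_pow hm hq
    omega
  have hdvd : ∀ m : ℕ, m ≠ 0 → (p ∣ q ^ m - 1 ↔ e ∣ m) := fun m hm => by
    rw [he, orderOf_dvd_iff_pow_eq_one, ← ZMod.natCast_eq_zero_iff, Nat.cast_sub
      (Nat.one_le_pow _ _ (by omega)), Nat.cast_pow, Nat.cast_one, sub_eq_zero]
  induction n with
  | zero => simp
  | succ n ih =>
    rw [Finset.prod_range_succ,
      padicValNat.mul (Finset.prod_ne_zero_iff.mpr fun i _ => hne _ (Nat.succ_ne_zero i))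
        (hne _ (Nat.succ_ne_zero n)), ih, Nat.succ_div]
    split_ifs with hd
    · have hm : n + 1 = e * (n / e + 1) := by
        have h1 := Nat.mul_div_cancel' hd
        rw [Nat.succ_div, if_pos hd] at h1
        exact h1.symm
      have hv : padicValNat p (q ^ (n + 1) - 1) = a + padicValNat p (n / e + 1) := by
        have h := padicValNat.pow_sub_pow (p := p) hodd (x := q ^ e) (y := 1)
          (Nat.one_lt_pow he0 hq) ((hdvd e he0).mpr dvd_rfl)
          (fun h => hpq (hp.1.dvd_of_dvd_pow h)) (n := n / e + 1) (Nat.succ_ne_zero _)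
        rw [one_pow, ← pow_mul, ← hm] at h
        rw [h, ha]
      rw [hv, Nat.factorial_succ,
        padicValNat.mul (Nat.succ_ne_zero _) (Nat.factorial_ne_zero _)]
      ring
    · rw [padicValNat.eq_zero_of_not_dvd (fun h => hd ((hdvd _ (Nat.succ_ne_zero n)).mp h))]
      simp

theorem card_GL_padic {p : ℕ} [hp : Fact p.Prime] (F : Type*) [Field F] [Fintype F]
    (hpq : ¬ p ∣ Fintype.card F) (n : ℕ) :
    padicValNat p (Nat.card (Matrix.GeneralLinearGroup (Fin n) F)) =
      padicValNat p (∏ i ∈ Finset.range n, (Fintype.card F ^ (i + 1) - 1)) := by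
  rw [Matrix.card_GL_field]
  set q := Fintype.card F with hq
  have h2 : 2 ≤ q := Fintype.one_lt_card
  have e : (∏ i : Fin n, (q ^ n - q ^ (i : ℕ))) =
      (∏ i ∈ Finset.range n, q ^ i) * ∏ i ∈ Finset.range n, (q ^ (i + 1) - 1) := by
    rw [Fin.prod_univ_eq_prod_range (fun i => q ^ n - q ^ i),
      ← Finset.prod_range_reflect (fun i => q ^ (i + 1) - 1), ← Finset.prod_mul_distrib]
    refine Finset.prod_congr rfl fun i hi => ?_
    rw [Finset.mem_range] at hi
    rw [Nat.mul_sub, mul_one, ← pow_add, show i + (n - 1 - i + 1) = n by omega]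
  have hne : (∏ i ∈ Finset.range n, (q ^ (i + 1) - 1)) ≠ 0 :=
    Finset.prod_ne_zero_iff.mpr fun i _ => by
      have := Nat.one_lt_pow (n := i + 1) (by omega) h2
      omega
  rw [e, padicValNat.mul (Finset.prod_ne_zero_iff.mpr fun i _ => pow_ne_zero _ (by omega)) hne,
    padicValNat.eq_zero_of_not_dvd, zero_add]
  intro h
  obtain ⟨i, -, hi⟩ := (Prime.dvd_finset_prod_iff hp.1.prime _).mp h
  exact hpq (hp.1.dvd_of_dvd_pow hi)

/-! ### The derived length -/

theorem derived_length {p : ℕ} [hp : Fact p.Prime] (hp2 : p ≠ 2) (F : Type*) [Field F] [Fintype F]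
    (hpq : ¬ p ∣ Fintype.card F) (n : ℕ) (hn : orderOf (Fintype.card F : ZMod p) ≤ n)
    (P : Sylow p (Matrix.GeneralLinearGroup (Fin n) F)) :
    derivedSeries ↥(P : Subgroup (Matrix.GeneralLinearGroup (Fin n) F))
        (Nat.log p (n / orderOf (Fintype.card F : ZMod p)) + 1) = ⊥ ∧
      derivedSeries ↥(P : Subgroup (Matrix.GeneralLinearGroup (Fin n) F))
        (Nat.log p (n / orderOf (Fintype.card F : ZMod p))) ≠ ⊥ := by
  set q := Fintype.card F with hq
  set e := orderOf (q : ZMod p) with he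
  have hq2 : 2 ≤ q := Fintype.one_lt_card
  have hqne : (q : ZMod p) ≠ 0 := fun h => hpq ((ZMod.natCast_eq_zero_iff _ _).mp h)
  have he0 : e ≠ 0 := (orderOf_pos_iff.mpr (isOfFinOrder_iff_pow_eq_one.mpr
    ⟨p - 1, Nat.sub_pos_of_lt hp.1.one_lt, ZMod.pow_card_sub_one_eq_one hqne⟩)).ne'
  haveI : NeZero e := ⟨he0⟩
  set w := n / e with hw
  have hw0 : 1 ≤ w := (Nat.one_le_div_iff (Nat.pos_of_ne_zero he0)).mpr hn
  set a := padicValNat p (q ^ e - 1) with ha
  -- the field of degree `e`
  set r := ringChar F with hr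
  haveI : CharP F r := ringChar.charP F
  haveI : Fact r.Prime := ⟨CharP.char_is_prime F r⟩
  let E := FiniteField.Extension F r e
  have hcardE : Nat.card E = q ^ e := by
    rw [FiniteField.natCard_extension, Nat.card_eq_fintype_card]
  have hpu : p ∣ Nat.card Eˣ := by
    rw [Nat.card_units, hcardE, ← ZMod.natCast_eq_zero_iff,
      Nat.cast_sub (Nat.one_le_pow _ _ (by omega)), Nat.cast_pow, he, pow_orderOf_eq_one,
      Nat.cast_one, sub_self]
  obtain ⟨Cs⟩ : Nonempty (Sylow p Eˣ) := inferInstance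
  have hCs : Nat.card (Cs : Subgroup Eˣ) = p ^ a := by
    rw [Sylow.card_eq_multiplicity, Nat.card_units, hcardE, Nat.factorization_def _ hp.1]
  let θ : (Cs : Subgroup Eˣ) →* Module.End F E :=
    { toFun := fun c => LinearMap.mulLeft F ((c : Eˣ) : E)
      map_one' := by ext x; simp
      map_mul' := fun c d => by ext x; simp [mul_assoc] }
  have hθ : Function.Injective θ := fun c d h => Subtype.ext (Units.ext (by
    simpa [θ] using LinearMap.congr_fun h 1))
  have hdim : Module.finrank F (Fin w → E) ≤ n := by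
    rw [Module.finrank_pi_fintype, Finset.sum_const, Finset.card_univ, Fintype.card_fin,
      FiniteField.finrank_extension, smul_eq_mul]
    exact Nat.div_mul_le_self n e
  obtain ⟨g, hg⟩ := exists_pad F hdim
  let Φ : wreath (Fin w) (Cs : Subgroup Eˣ) →* Matrix.GeneralLinearGroup (Fin n) F :=
    g.comp (monomial F θ).toHomUnits
  have hΦ : Function.Injective Φ := hg.comp fun a b h =>
    monomial_injective F θ hθ (congrArg Units.val h)
  -- the Sylow orders agree
  have hcard : Nat.card (P : Subgroup (Matrix.GeneralLinearGroup (Fin n) F)) =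
      p ^ (a * w + padicValNat p w !) := by
    rw [Sylow.card_eq_multiplicity, Nat.factorization_def _ hp.1, card_GL_padic F hpq,
      padicValNat_prod_sub_one (hp.1.odd_of_ne_two hp2) hq2 hpq he he0 ha n]
  obtain ⟨P₁⟩ : Nonempty (Sylow p (wreath (Fin w) (Cs : Subgroup Eˣ))) := inferInstance
  have hP₁ : Nat.card (P₁ : Subgroup (wreath (Fin w) (Cs : Subgroup Eˣ))) =
      p ^ (a * w + padicValNat p w !) := by
    rw [Sylow.card_eq_multiplicity, card_wreath, Nat.card_fin, hCs, ← pow_mul,
      Nat.factorization_def _ hp.1, padicValNat.mul (Nat.factorial_ne_zero _)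
        (pow_ne_zero _ hp.1.pos.ne'), padicValNat.prime_pow, add_comm]
  obtain ⟨P', hP'⟩ := (P₁.isPGroup'.map Φ).exists_le_sylow
  have hle : ((P₁ : Subgroup _).map Φ) = (P' : Subgroup (Matrix.GeneralLinearGroup (Fin n) F)) := by
    refine Subgroup.eq_of_le_of_card_ge hP' (le_of_eq ?_)
    rw [← Nat.card_congr ((P₁ : Subgroup _).equivMapOfInjective Φ hΦ).toEquiv, hP₁,
      Nat.card_congr (P'.equiv P).toEquiv, hcard]
  let iso : (P₁ : Subgroup (wreath (Fin w) (Cs : Subgroup Eˣ))) ≃*
      (P : Subgroup (Matrix.GeneralLinearGroup (Fin n) F)) :=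
    ((P₁ : Subgroup _).equivMapOfInjective Φ hΦ).trans
      ((MulEquiv.subgroupCongr hle).trans (P'.equiv P))
  refine ⟨?_, ?_⟩
  · set k := Nat.log p w with hk
    let π := (proj (Fin w) (Cs : Subgroup Eˣ)).comp
      (P₁ : Subgroup (wreath (Fin w) (Cs : Subgroup Eˣ))).subtype
    have hbot : derivedSeries π.range k = ⊥ :=
      DerivedLen.perm_derived_bot hw0 _ (P₁.isPGroup'.of_surjective π.rangeRestrict
        π.rangeRestrict_surjective)
    have hker : derivedSeries (P₁ : Subgroup (wreath (Fin w) (Cs : Subgroup Eˣ))) k ≤ π.ker := by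
      intro x hx
      have := map_derivedSeries_le_derivedSeries π.rangeRestrict k (Subgroup.mem_map_of_mem _ hx)
      rw [hbot, Subgroup.mem_bot] at this
      exact congrArg Subtype.val this
    have h1 : derivedSeries (P₁ : Subgroup (wreath (Fin w) (Cs : Subgroup Eˣ))) (k + 1) = ⊥ := by
      rw [derivedSeries_succ, eq_bot_iff, Subgroup.commutator_le]
      intro x hx y hy
      rw [Subgroup.mem_bot, commutatorElement_eq_one_iff_mul_comm]
      exact Subtype.ext (commute_of_mem_ker _ _ (hker hx) (hker hy))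
    rw [← map_derivedSeries_eq (f := iso.toMonoidHom) iso.surjective, h1, Subgroup.map_bot]
  · -- a subgroup `C_p ≀ Sym w` with a Sylow subgroup of `Sym (pw)`
    obtain ⟨c, hc⟩ := exists_prime_orderOf_dvd_card' p hpu
    let θ₀ : Subgroup.zpowers c →* Module.End F E :=
      { toFun := fun d => LinearMap.mulLeft F ((d : Eˣ) : E)
        map_one' := by ext x; simp
        map_mul' := fun c d => by ext x; simp [mul_assoc] }
    have hθ₀ : Function.Injective θ₀ := fun c d h => Subtype.ext (Units.ext (by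
      simpa [θ₀] using LinearMap.congr_fun h 1))
    let Φ₀ : wreath (Fin w) (Subgroup.zpowers c) →* Matrix.GeneralLinearGroup (Fin n) F :=
      g.comp (monomial F θ₀).toHomUnits
    have hΦ₀ : Function.Injective Φ₀ := hg.comp fun a b h =>
      monomial_injective F θ₀ hθ₀ (congrArg Units.val h)
    obtain ⟨P₀⟩ : Nonempty (Sylow p (wreath (Fin w) (Subgroup.zpowers c))) := inferInstance
    have hcz : Nat.card (Subgroup.zpowers c) = p := by rw [Nat.card_zpowers, hc]
    let ε : Fin w × Subgroup.zpowers c ≃ Fin (p * w) :=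
      Finite.equivFinOfCardEq (by rw [Nat.card_prod, Nat.card_fin, hcz, mul_comm])
    let ψ : wreath (Fin w) (Subgroup.zpowers c) →* Equiv.Perm (Fin (p * w)) :=
      ε.permCongrHom.toMonoidHom.comp (wreath (Fin w) (Subgroup.zpowers c)).subtype
    have hψ : Function.Injective ψ := ε.permCongrHom.injective.comp Subtype.val_injective
    obtain ⟨S, hS⟩ := (P₀.isPGroup'.map ψ).exists_le_sylow
    have hSeq : ((P₀ : Subgroup _).map ψ) = (S : Subgroup (Equiv.Perm (Fin (p * w)))) := by
      refine Subgroup.eq_of_le_of_card_ge hS (le_of_eq ?_)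
      rw [← Nat.card_congr ((P₀ : Subgroup _).equivMapOfInjective ψ hψ).toEquiv,
        Sylow.card_eq_multiplicity, Sylow.card_eq_multiplicity, card_wreath, Nat.card_perm,
        Nat.card_fin, Nat.card_fin, hcz, Nat.factorization_def _ hp.1, Nat.factorization_def _ hp.1,
        padicValNat_factorial_mul, padicValNat.mul (Nat.factorial_ne_zero _)
        (pow_ne_zero _ hp.1.pos.ne'), padicValNat.prime_pow]
    have hlog : Nat.log p (p * w) = Nat.log p w + 1 := by
      rw [mul_comm, Nat.log_mul_base hp.1.one_lt (by omega)]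
    have hd := DerivedLen.sylow_derived_ne_bot (p := p) (n := p * w)
      (Nat.mul_ne_zero hp.1.pos.ne' (by omega)) (by omega) S
    rw [hlog, Nat.add_sub_cancel] at hd
    obtain ⟨P'', hP''⟩ := (P₀.isPGroup'.map Φ₀).exists_le_sylow
    refine DerivedLen.derived_ne_bot_map
      ((((P''.equiv P).toMonoidHom.comp (Subgroup.inclusion hP'')).comp
        ((P₀ : Subgroup _).equivMapOfInjective Φ₀ hΦ₀).toMonoidHom).comp
        (((P₀ : Subgroup _).equivMapOfInjective ψ hψ).trans
          (MulEquiv.subgroupCongr hSeq)).symm.toMonoidHom) ?_ hd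
    exact (((P''.equiv P).injective.comp (Subgroup.inclusion_injective hP'')).comp
      (MulEquiv.injective _)).comp (MulEquiv.injective _)

end Cfsg.Agent.FGS75.GLSylow
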