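import Mathlib

/-!
Derived length of linear p-groups: at most `log₂ n + 1` in dimension `n`, over any field.
-/

set_option autoImplicit false
set_option maxHeartbeats 600000

open scoped commutatorElement

namespace Cfsg.Agent.FGS75.LinearPGroup

variable {F : Type*} [Field F]

/-- In characteristic `p` a `p`-group acting on a nonzero space fixes a nonzero vector. -/
theorem exists_fixed {V : Type*} [AddCommGroup V] [Module F V] [Nontrivial V]
    {P : Type*} [Group P] [Finite P] {p : ℕ} [hp : Fact p.Prime] [CharP F p] (hP : IsPGroup p P)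
    (ρ : P →* Module.End F V) : ∃ v : V, v ≠ 0 ∧ ∀ g, ρ g v = v := by
  classical
  haveI : Fintype P := Fintype.ofFinite P
  obtain ⟨v₀, hv₀⟩ := exists_ne (0 : V)
  let c : ZMod p →+* F := ZMod.castHom dvd_rfl F
  let f : (P → ZMod p) →+ V :=
    { toFun := fun a => ∑ g, c (a g) • ρ g v₀
      map_zero' := by simp
      map_add' := fun a b => by simp [add_smul, Finset.sum_add_distrib] }
  have hinv : ∀ (h : P) (w : V), w ∈ f.range → ρ h w ∈ f.range := by
    rintro h w ⟨a, rfl⟩
    refine ⟨fun g => a (h⁻¹ * g), ?_⟩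
    show ∑ g, c (a (h⁻¹ * g)) • ρ g v₀ = ρ h (∑ g, c (a g) • ρ g v₀)
    rw [map_sum, ← Equiv.sum_comp (Equiv.mulLeft h)]
    refine Finset.sum_congr rfl fun g _ => ?_
    simp [map_smul]
  letI : MulAction P f.range :=
    { smul := fun h w => ⟨ρ h w, hinv h w w.2⟩
      one_smul := fun w => Subtype.ext (show ρ 1 (w : V) = w by rw [map_one]; rfl)
      mul_smul := fun g h w => Subtype.ext
        (show ρ (g * h) (w : V) = ρ g (ρ h (w : V)) by rw [map_mul]; rfl) }
  haveI : Finite f.range := Finite.of_surjective f.rangeRestrict f.rangeRestrict_surjective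
  have hmem : v₀ ∈ f.range := by
    refine ⟨Pi.single 1 1, ?_⟩
    show ∑ g, c ((Pi.single 1 1 : P → ZMod p) g) • ρ g v₀ = v₀
    rw [Finset.sum_eq_single 1 (fun g _ hg => by simp [Pi.single_eq_of_ne hg])
      (fun h => absurd (Finset.mem_univ _) h)]
    simp
  have hdvd : p ∣ Nat.card f.range := by
    have h1 : Nat.card f.range ∣ p ^ Fintype.card P := by
      have := AddSubgroup.card_range_dvd f
      simpa [Nat.card_eq_fintype_card, Fintype.card_fun] using this
    obtain ⟨i, -, hi⟩ := (Nat.dvd_prime_pow hp.1).mp h1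
    rcases i with _ | i
    · exfalso
      rw [pow_zero, Nat.card_eq_one_iff_unique] at hi
      haveI := hi.1
      exact hv₀ (congrArg Subtype.val (Subsingleton.elim (⟨v₀, hmem⟩ : f.range) 0))
    · rw [hi, pow_succ]; exact dvd_mul_left p _
  have h0 : (0 : f.range) ∈ MulAction.fixedPoints P f.range := fun g =>
    Subtype.ext (show ρ g (0 : V) = 0 from map_zero _)
  obtain ⟨w, hw, hw0⟩ := hP.exists_fixed_point_of_prime_dvd_card_of_fixed_point _ hdvd h0
  exact ⟨w, fun h => hw0 (Subtype.ext h.symm), fun g => congrArg Subtype.val (hw g)⟩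

/-- The flag of iterated fixed spaces. -/
noncomputable def fixFlag {V : Type*} [AddCommGroup V] [Module F V] {P : Type*} [Group P]
    (ρ : P →* Module.End F V) : ℕ → Submodule F V
  | 0 => ⊥
  | i + 1 => ⨅ g : P, Submodule.comap (ρ g - 1) (fixFlag ρ i)

/-- The bound in characteristic `p`. -/
theorem derivedSeries_eq_bot_of_charP {V : Type*} [AddCommGroup V] [Module F V]
    [Module.Finite F V] {P : Type*} [Group P] [Finite P] {p : ℕ} [Fact p.Prime] [CharP F p]
    (hP : IsPGroup p P) (ρ : P →* Module.End F V) (hρ : Function.Injective ρ) (k : ℕ)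
    (hk : Module.finrank F V ≤ 2 ^ k) : derivedSeries P k = ⊥ := by
  obtain ⟨U, hU0, hU⟩ : ∃ U : ℕ → Submodule F V, U 0 = ⊥ ∧
      ∀ i v, v ∈ U (i + 1) ↔ ∀ g, ρ g v - v ∈ U i := by
    refine ⟨fixFlag ρ, rfl, fun i v => ?_⟩
    rw [fixFlag, Submodule.mem_iInf]
    rfl
  have hmono : ∀ i, U i ≤ U (i + 1) := by
    intro i
    induction i with
    | zero => exact hU0.le.trans bot_le
    | succ i ih => exact fun v hv => (hU _ v).mpr fun g => ih ((hU _ v).mp hv g)
  have hmono' : Monotone U := monotone_nat_of_le_succ hmono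
  have hinv : ∀ i g v, v ∈ U i → ρ g v ∈ U i := by
    intro i g v hv
    rcases i with _ | i
    · rw [hU0] at hv; rw [show v = 0 from (Submodule.mem_bot F).mp hv, map_zero]; exact zero_mem _
    · have := hmono i ((hU i v).mp hv g)
      simpa using add_mem this hv
  have hgrow : ∀ i, U i ≠ ⊤ → U i < U (i + 1) := by
    intro i hi
    refine lt_of_le_of_ne (hmono i) fun heq => ?_
    haveI : Nontrivial (V ⧸ U i) := Submodule.Quotient.nontrivial_iff.mpr hi
    let ρ' : P →* Module.End F (V ⧸ U i) :=
      { toFun := fun g => (U i).mapQ (U i) (ρ g) (fun v hv => hinv i g v hv)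
        map_one' := LinearMap.ext fun x => by
          induction x using Submodule.Quotient.induction_on with
          | H v => simp
        map_mul' := fun a b => LinearMap.ext fun x => by
          induction x using Submodule.Quotient.induction_on with
          | H v => simp }
    obtain ⟨x, hx, hfix⟩ := exists_fixed hP ρ'
    induction x using Submodule.Quotient.induction_on with
    | H v =>
      apply hx
      rw [Submodule.Quotient.mk_eq_zero, heq]
      exact (hU i v).mpr fun g => (Submodule.Quotient.eq _).mp (hfix g)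
  have hrank : ∀ i, U i = ⊤ ∨ i ≤ Module.finrank F (U i) := by
    intro i
    induction i with
    | zero => exact Or.inr (Nat.zero_le _)
    | succ i ih =>
      by_cases htop : U i = ⊤
      · exact Or.inl (top_le_iff.mp (htop ▸ hmono i))
      · rcases ih with ih | ih
        · exact absurd ih htop
        · exact Or.inr (lt_of_le_of_lt ih (Submodule.finrank_lt_finrank_of_lt (hgrow i htop)))
  have htop : U (2 ^ k) = ⊤ := by
    rcases hrank (2 ^ k) with h | h
    · exact h
    · exact Submodule.eq_top_of_finrank_eq (le_antisymm (Submodule.finrank_le _) (hk.trans h))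
  -- the levels
  have key : ∀ j, ∀ g ∈ derivedSeries P j, ∀ i v, v ∈ U (i + 2 ^ j) → ρ g v - v ∈ U i := by
    intro j
    induction j with
    | zero => exact fun g _ i v hv => (hU i v).mp hv g
    | succ j ih =>
      let L : Subgroup P :=
        { carrier := {g | ∀ i v, v ∈ U (i + 2 ^ (j + 1)) → ρ g v - v ∈ U i}
          one_mem' := by intro i v _; simp
          mul_mem' := by
            intro a b ha hb i v hv
            have e : ρ (a * b) v - v = ρ a (ρ b v - v) + (ρ a v - v) := by
              rw [map_mul, Module.End.mul_apply, map_sub]; abel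
            rw [e]
            exact add_mem (hinv i a _ (hb i v hv)) (ha i v hv)
          inv_mem' := by
            intro a ha i v hv
            have e : ρ a⁻¹ v - v = - ρ a⁻¹ (ρ a v - v) := by
              rw [map_sub, ← Module.End.mul_apply, ← map_mul, inv_mul_cancel, map_one]
              simp
            rw [e]
            exact neg_mem (hinv i a⁻¹ _ (ha i v hv)) }
      have hle : derivedSeries P (j + 1) ≤ L := by
        rw [derivedSeries_succ, Subgroup.commutator_le]
        intro g hg h hh i v hv
        rw [pow_succ, mul_two, ← add_assoc] at hv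
        set w := ρ (g⁻¹ * h⁻¹) v with hw
        have hwU : w ∈ U (i + 2 ^ j + 2 ^ j) := hinv _ _ _ hv
        have h1 : ρ ⁅g, h⁆ v = ρ g (ρ h w) := by
          rw [hw, commutatorElement_def, ← Module.End.mul_apply, ← Module.End.mul_apply, ← map_mul,
            ← map_mul]
          group
        have h2 : v = ρ h (ρ g w) := by
          rw [hw, ← Module.End.mul_apply, ← Module.End.mul_apply, ← map_mul, ← map_mul,
            show h * g * (g⁻¹ * h⁻¹) = 1 by group, map_one, Module.End.one_apply]
        have e : ρ ⁅g, h⁆ v - v =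
            (ρ g (ρ h w - w) - (ρ h w - w)) - (ρ h (ρ g w - w) - (ρ g w - w)) := by
          rw [h1]; conv_lhs => arg 2; rw [h2]
          rw [map_sub, map_sub]; abel
        rw [e]
        exact sub_mem (ih g hg i _ (ih h hh _ w hwU)) (ih h hh i _ (ih g hg _ w hwU))
      exact fun g hg => hle hg
  rw [eq_bot_iff]
  intro g hg
  rw [Subgroup.mem_bot]
  refine hρ (LinearMap.ext fun v => ?_)
  have := key k g hg 0 v (by rw [Nat.zero_add, htop]; exact Submodule.mem_top)
  rw [map_one, Module.End.one_apply]
  exact sub_eq_zero.mp ((Submodule.mem_bot F).mp (hU0 ▸ this))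

theorem apply_eq_of_mem_derivedSeries {K : Type*} [Field K] {p : ℕ} {P : Type*} [Group P]
    [Finite P] {V : Type*} [AddCommGroup V] [Module K V] {ρ : P →* Module.End K V}
    (_hρ : ∀ ⦃a b : P⦄, ρ a = ρ b → a = b) (H : Subgroup P) (E : Submodule K V)
    (hpres : ∀ (h : H) (w : V), w ∈ E → ρ (h : P) w ∈ E) (j : ℕ)
    (hind : ∀ (Q : Subgroup H) (_ : Q.Normal) (_ : Finite (H ⧸ Q)), IsPGroup p (H ⧸ Q) →
      ∀ σ : H ⧸ Q →* Module.End K E, Function.Injective σ → derivedSeries (H ⧸ Q) j = ⊥)
    (hP : IsPGroup p P) (g : H) (hg : g ∈ derivedSeries H j) (w : V) (hw : w ∈ E) :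
    ρ (g : P) w = w := by
  obtain ⟨σ, hσ⟩ : ∃ σ : H →* Module.End K E, ∀ (h : H) (w : E), (σ h w : V) = ρ (h : P) (w : V) :=
    ⟨{ toFun := fun h => (ρ (h : P)).restrict (hpres h)
       map_one' := LinearMap.ext fun w => Subtype.ext
        (show ρ ((1 : H) : P) (w : V) = (w : V) by
          rw [OneMemClass.coe_one, map_one, Module.End.one_apply])
       map_mul' := fun a b => LinearMap.ext fun w => Subtype.ext
        (show ρ ((a * b : H) : P) (w : V) = ρ (a : P) (ρ (b : P) (w : V)) by
          rw [Subgroup.coe_mul, map_mul, Module.End.mul_apply]) }, fun _ _ => rfl⟩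
  set τ := σ.toHomUnits with hτ
  have hfin : Finite (H ⧸ τ.ker) := Quotient.finite _
  have hpq : IsPGroup p (H ⧸ τ.ker) := (hP.to_subgroup H).to_quotient τ.ker
  have hQ : derivedSeries (H ⧸ τ.ker) j = ⊥ :=
    hind τ.ker τ.normal_ker hfin hpq ((Units.coeHom _).comp (QuotientGroup.kerLift τ))
      (Units.val_injective.comp (QuotientGroup.kerLift_injective τ))
  have := map_derivedSeries_le_derivedSeries (QuotientGroup.mk' τ.ker) j
    (Subgroup.mem_map_of_mem _ hg)
  rw [hQ, Subgroup.mem_bot] at this
  have hker : σ g = 1 :=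
    congrArg Units.val (MonoidHom.mem_ker.mp ((QuotientGroup.eq_one_iff g).mp this))
  rw [← hσ g ⟨w, hw⟩, hker]
  rfl

/-- The bound for `p`-groups in characteristic different from `p`, over an algebraically closed
field. -/
theorem derivedSeries_eq_bot_of_ne {K : Type*} [Field K] [IsAlgClosed K] {p : ℕ} [Fact p.Prime]
    (hpK : (p : K) ≠ 0) {P : Type*} [Group P] [Finite P] (hP : IsPGroup p P) {V : Type*}
    [AddCommGroup V] [Module K V] [Module.Finite K V] (n : ℕ) (hn : Module.finrank K V ≤ n)
    (ρ : P →* Module.End K V) (hρ : Function.Injective ρ) :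
    derivedSeries P (Nat.log 2 n + 1) = ⊥ := by
  induction n using Nat.strong_induction_on generalizing P V with
  | _ n ih =>
  -- splitting along the eigenspaces of an element
  have split : ∀ (z : P) (H : Subgroup P) (d : ℕ), d < n → (∀ h ∈ H, h * z = z * h) →
      (∀ μ : K, Module.finrank K (Module.End.eigenspace (ρ z) μ) ≤ d) →
      derivedSeries H (Nat.log 2 d + 1) = ⊥ := by
    intro z H d hd hcomm hdim
    have htop : ⨆ μ : K, Module.End.eigenspace (ρ z) μ = ⊤ := by
      obtain ⟨a, ha⟩ := hP z
      have hsep : ((Polynomial.X : Polynomial K) ^ (p ^ a) - Polynomial.C 1).Separable :=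
        Polynomial.separable_X_pow_sub_C 1 (by rw [Nat.cast_pow]; exact pow_ne_zero _ hpK) one_ne_zero
      have hss : (ρ z).IsSemisimple :=
        Module.End.isSemisimple_of_squarefree_aeval_eq_zero hsep.squarefree (by
          rw [map_sub, map_pow, Polynomial.aeval_X, Polynomial.aeval_C, ← map_pow, ha, map_one,
            map_one, sub_self])
      rw [← Module.End.iSup_maxGenEigenspace_eq_top (ρ z)]
      simp only [hss.isFinitelySemisimple.maxGenEigenspace_eq_eigenspace]
    rw [eq_bot_iff]
    intro g hg
    rw [Subgroup.mem_bot]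
    refine Subtype.ext (hρ ?_)
    rw [OneMemClass.coe_one, map_one]
    refine LinearMap.ext_on_range (v := fun x : Σ μ : K, Module.End.eigenspace (ρ z) μ => (x.2 : V))
      ?_ fun x => ?_
    · rw [eq_top_iff, ← htop]
      exact iSup_le fun μ v hv => Submodule.subset_span ⟨⟨μ, v, hv⟩, rfl⟩
    obtain ⟨μ, v, hv⟩ := x
    suffices key : ∀ E : Submodule K V, Module.finrank K E ≤ d →
        (∀ (h : H) (w : V), w ∈ E → ρ (h : P) w ∈ E) → ∀ w ∈ E, ρ (g : P) w = w by
      refine (key _ (hdim μ) ?_ v hv).trans rfl
      intro h w hw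
      rw [Module.End.mem_eigenspace_iff] at hw ⊢
      rw [← Module.End.mul_apply, ← map_mul, ← hcomm _ h.2, map_mul, Module.End.mul_apply, hw,
        map_smul]
    intro E hE hpres w hw
    exact apply_eq_of_mem_derivedSeries (fun _ _ h => hρ h) H E hpres (Nat.log 2 d + 1)
      (fun Q _ _ hQ σ hσ => ih d hd hQ (V := E) hE σ hσ) hP g hg w hw
  by_cases hsc : ∀ c ∈ Subgroup.center P, ∃ μ : K, ρ c = μ • 1
  swap
  · push Not at hsc
    obtain ⟨c, hc, hcns⟩ := hsc
    rcases Nat.eq_zero_or_pos n with rfl | hnpos
    · exfalso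
      haveI := Module.finrank_zero_iff.mp (Nat.le_zero.mp hn)
      exact hcns 0 (LinearMap.ext fun v => Subsingleton.elim _ _)
    have hdim : ∀ μ : K, Module.finrank K (Module.End.eigenspace (ρ c) μ) ≤ n - 1 := by
      intro μ
      refine Nat.le_sub_one_of_lt (lt_of_lt_of_le (Submodule.finrank_lt ?_) hn)
      intro htop
      refine hcns μ (LinearMap.ext fun v => ?_)
      simpa using Module.End.mem_eigenspace_iff.mp (htop ▸ Submodule.mem_top (x := v))
    have h := split c ⊤ (n - 1) (by omega) (fun h _ => Subgroup.mem_center_iff.mp hc h) hdim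
    have h' : derivedSeries P (Nat.log 2 (n - 1) + 1) = ⊥ := by
      rw [← map_derivedSeries_eq (f := (Subgroup.topEquiv (G := P)).toMonoidHom)
        (Subgroup.topEquiv (G := P)).surjective,
        h, Subgroup.map_bot]
    rw [eq_bot_iff, ← h']
    exact derivedSeries_antitone P (Nat.add_le_add_right (Nat.log_mono_right (Nat.sub_le _ _)) 1)
  by_cases hab : ∀ a b : P, a * b = b * a
  · rw [eq_bot_iff]
    refine le_trans (derivedSeries_antitone P (Nat.le_add_left 1 _)) ?_
    rw [derivedSeries_one, commutator_def, Subgroup.commutator_le]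
    intro a _ b _
    rw [Subgroup.mem_bot, commutatorElement_eq_one_iff_mul_comm]
    exact hab a b
  -- an element central modulo the centre
  set Z := Subgroup.center P with hZ
  haveI : Group.IsNilpotent P := hP.isNilpotent
  haveI : Nontrivial (P ⧸ Z) := by
    rcases subsingleton_or_nontrivial (P ⧸ Z) with h | h
    · exfalso
      apply hab
      intro a b
      have ha : a ∈ Z := (QuotientGroup.eq_one_iff a).mp (Subsingleton.elim _ _)
      exact (Subgroup.mem_center_iff.mp ha b).symm
    · exact h
  haveI := (hP.to_quotient Z).center_nontrivial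
  obtain ⟨⟨q, hqc⟩, hq⟩ := exists_ne (1 : Subgroup.center (P ⧸ Z))
  obtain ⟨z, rfl⟩ := QuotientGroup.mk'_surjective Z q
  have hzZ : z ∉ Z := fun h => hq (Subtype.ext ((QuotientGroup.eq_one_iff z).mpr h))
  have hzc : ∀ g : P, ⁅g, z⁆ ∈ Z := by
    intro g
    refine (QuotientGroup.eq_one_iff _).mp ?_
    have := Subgroup.mem_center_iff.mp hqc (QuotientGroup.mk' Z g)
    rw [← QuotientGroup.mk'_apply, map_commutatorElement, commutatorElement_eq_one_iff_mul_comm]
    exact this
  set H : Subgroup P := Subgroup.centralizer {z} with hH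
  have hder : derivedSeries P 1 ≤ H := by
    rw [derivedSeries_one, commutator_def, Subgroup.commutator_le]
    intro a _ b _
    rw [hH, Subgroup.mem_centralizer_singleton_iff]
    have hconj : ∀ g : P, g * z * g⁻¹ = ⁅g, z⁆ * z := fun g => by rw [commutatorElement_def]; group
    let φ : P →* Z :=
      { toFun := fun g => ⟨⁅g, z⁆, hzc g⟩
        map_one' := Subtype.ext (commutatorElement_one_left z)
        map_mul' := fun g h => Subtype.ext (by
          show ⁅g * h, z⁆ = ⁅g, z⁆ * ⁅h, z⁆
          have h1 := Subgroup.mem_center_iff.mp (hzc h) g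
          calc ⁅g * h, z⁆ = g * ⁅h, z⁆ * g⁻¹ * ⁅g, z⁆ := by simp only [commutatorElement_def]; group
            _ = ⁅h, z⁆ * ⁅g, z⁆ := by rw [h1, mul_inv_cancel_right]
            _ = ⁅g, z⁆ * ⁅h, z⁆ := (Subgroup.mem_center_iff.mp (hzc h) _).symm) }
    have h1 : φ ⁅a, b⁆ = 1 := by
      rw [map_commutatorElement, commutatorElement_eq_one_iff_mul_comm]
      exact Subtype.ext (Subgroup.mem_center_iff.mp (φ b).2 _)
    exact commutatorElement_eq_one_iff_mul_comm.mp (congrArg Subtype.val h1)
  -- all eigenspaces of `z` have dimension at most `n / 2`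
  have hdim : ∀ μ : K, Module.finrank K (Module.End.eigenspace (ρ z) μ) ≤ n / 2 := by
    intro μ
    rw [Subgroup.mem_center_iff] at hzZ
    push Not at hzZ
    obtain ⟨g, hg⟩ := hzZ
    obtain ⟨c, hc⟩ := hsc _ (hzc g)
    set E := Module.End.eigenspace (ρ z) μ with hE
    have hgE : ∀ v ∈ E, ρ g v ∈ Module.End.eigenspace (ρ z) (c⁻¹ * μ) ∧ c ≠ 0 := by
      intro v hv
      rw [hE, Module.End.mem_eigenspace_iff] at hv
      have e : ρ g (ρ z v) = c • ρ z (ρ g v) := by
        rw [← Module.End.mul_apply, ← map_mul, show g * z = ⁅g, z⁆ * (z * g) by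
          rw [commutatorElement_def]; group, map_mul, hc, map_mul]
        simp [Module.End.mul_apply]
      rw [hv, map_smul] at e
      have hc0 : c ≠ 0 := by
        intro h0
        have h1 : ρ ⁅g, z⁆⁻¹ * ρ ⁅g, z⁆ = 1 := by rw [← map_mul, inv_mul_cancel, map_one]
        rw [hc, h0, zero_smul, mul_zero] at h1
        exact hg (commutatorElement_eq_one_iff_mul_comm.mp (hρ (by rw [hc, h0, zero_smul, map_one, h1])))
      refine ⟨?_, hc0⟩
      rw [Module.End.mem_eigenspace_iff, mul_smul, e, smul_smul, inv_mul_cancel₀ hc0, one_smul]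
    by_cases hbot : E = ⊥
    · rw [hbot, finrank_bot]; exact Nat.zero_le _
    obtain ⟨v₀, hv₀, hv₀0⟩ := Submodule.exists_mem_ne_zero_of_ne_bot hbot
    have hc0 := (hgE v₀ hv₀).2
    have hc1 : c ≠ 1 := fun h1 =>
      hg (commutatorElement_eq_one_iff_mul_comm.mp (hρ (by rw [hc, h1, one_smul, map_one])))
    have hμ : c⁻¹ * μ ≠ μ := by
      intro h
      rcases eq_or_ne μ 0 with rfl | h0
      · -- `z` is invertible
        rw [hE, Module.End.mem_eigenspace_iff, zero_smul] at hv₀
        apply hv₀0
        have := congrArg (ρ z⁻¹) hv₀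
        rwa [← Module.End.mul_apply, ← map_mul, inv_mul_cancel, map_one, map_zero,
          Module.End.one_apply] at this
      · exact hc1 (inv_eq_one.mp ((mul_eq_right₀ h0).mp h))
    have hle : Module.finrank K E ≤ Module.finrank K (Module.End.eigenspace (ρ z) (c⁻¹ * μ)) :=
      LinearMap.finrank_le_finrank_of_injective
        (f := LinearMap.codRestrict _ ((ρ g).domRestrict E) (fun v => (hgE v v.2).1)) (by
          intro a b hab'
          refine Subtype.ext ?_
          have h1 : ρ g (a : V) = ρ g (b : V) := congrArg Subtype.val hab'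
          have := congrArg (ρ g⁻¹) h1
          rwa [← Module.End.mul_apply, ← Module.End.mul_apply, ← map_mul, inv_mul_cancel, map_one,
            Module.End.one_apply, Module.End.one_apply] at this)
    have hdisj : Disjoint E (Module.End.eigenspace (ρ z) (c⁻¹ * μ)) :=
      (Module.End.eigenspaces_iSupIndep (ρ z)).pairwiseDisjoint hμ.symm
    have hsum := Submodule.finrank_sup_add_finrank_inf_eq E (Module.End.eigenspace (ρ z) (c⁻¹ * μ))
    rw [hdisj.eq_bot, finrank_bot] at hsum
    have := Submodule.finrank_le (E ⊔ Module.End.eigenspace (ρ z) (c⁻¹ * μ))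
    omega
  have hnpos : 1 ≤ n := by
    by_contra h
    apply hzZ
    haveI := Module.finrank_zero_iff.mp (Nat.le_zero.mp (hn.trans (by omega : n ≤ 0)))
    have : z = 1 := hρ (LinearMap.ext fun v => Subsingleton.elim _ _)
    rw [this]; exact one_mem _
  have hH' := split z H (n / 2) (Nat.div_lt_self hnpos one_lt_two)
    (fun h hh => Subgroup.mem_centralizer_singleton_iff.mp hh) hdim
  rw [eq_bot_iff]
  rcases Nat.lt_or_ge n 2 with hn2 | hn2
  · exfalso
    have hz1 : ∀ μ : K, Module.finrank K (Module.End.eigenspace (ρ z) μ) = 0 := fun μ =>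
      Nat.le_zero.mp ((hdim μ).trans (by omega))
    haveI : Nontrivial V := by
      rcases subsingleton_or_nontrivial V with h | h
      · exact absurd (hρ (LinearMap.ext fun v => Subsingleton.elim _ _) : z = 1)
          fun h => hzZ (h ▸ one_mem _)
      · exact h
    obtain ⟨μ, hμ⟩ := Module.End.exists_eigenvalue (ρ z)
    exact hμ (Submodule.finrank_eq_zero.mp (hz1 μ))
  have hlog : Nat.log 2 n = Nat.log 2 (n / 2) + 1 := Nat.log_of_one_lt_of_le one_lt_two hn2
  rw [hlog]
  have hstep : ∀ j, derivedSeries P (j + 1) ≤ (derivedSeries H j).map H.subtype := by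
    intro j
    induction j with
    | zero =>
      intro x hx
      exact ⟨⟨x, hder hx⟩, Subgroup.mem_top _, rfl⟩
    | succ j ihj =>
      rw [derivedSeries_succ P, derivedSeries_succ H, Subgroup.map_commutator]
      exact Subgroup.commutator_mono ihj ihj
  refine (hstep _).trans ?_
  rw [hH', Subgroup.map_bot]

/-- A finite `p`-subgroup of `GL(n, F)` has derived length at most `log₂ n + 1`. -/
theorem derivedSeries_eq_bot {P : Type*} [Group P] [Finite P] (p : ℕ) [Fact p.Prime]
    (hP : IsPGroup p P) (n : ℕ) (ρ : P →* Matrix.GeneralLinearGroup (Fin n) F)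
    (hρ : Function.Injective ρ) : derivedSeries P (Nat.log 2 n + 1) = ⊥ := by
  by_cases hpF : (p : F) = 0
  · haveI : CharP F p := (CharP.charP_iff_prime_eq_zero Fact.out).mpr hpF
    exact derivedSeries_eq_bot_of_charP hP
      ((Units.coeHom _).comp ((Matrix.GeneralLinearGroup.toLin).toMonoidHom.comp ρ))
      (Units.val_injective.comp (Matrix.GeneralLinearGroup.toLin.injective.comp hρ)) _
      (by rw [Module.finrank_fin_fun]; exact (Nat.lt_pow_succ_log_self one_lt_two n).le)
  · let K := AlgebraicClosure F
    have hpK : (p : K) ≠ 0 := by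
      intro h
      apply hpF
      exact (algebraMap F K).injective (by rw [map_natCast, map_zero, h])
    refine derivedSeries_eq_bot_of_ne hpK hP n (by rw [Module.finrank_fin_fun])
      ((Units.coeHom _).comp ((Matrix.GeneralLinearGroup.toLin).toMonoidHom.comp
        ((Matrix.GeneralLinearGroup.map (algebraMap F K)).comp ρ)))
      (Units.val_injective.comp (Matrix.GeneralLinearGroup.toLin.injective.comp ?_))
    intro a b h
    apply hρ
    refine Units.ext (Matrix.ext fun i j => (algebraMap F K).injective ?_)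
    exact congrArg (fun M : Matrix.GeneralLinearGroup (Fin n) K => (M : Matrix (Fin n) (Fin n) K) i j) h

end Cfsg.Agent.FGS75.LinearPGroup
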