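import Mathlib
import Cfsg.Agent.Lib.Element

set_option autoImplicit false

/-! `π`-closed groups and `π'`-homogeneity. -/

namespace Cfsg.Agent.FGS75

open scoped Pointwise

variable {G : Type*} [Group G]

/-- all prime divisors of the order of `x` are in `π` -/
def PiEl (π : Set ℕ) (x : G) : Prop := ∀ p : ℕ, p.Prime → p ∣ orderOf x → p ∈ π

def PiClosed (π : Set ℕ) (G : Type*) [Group G] : Prop :=
  ∃ K : Subgroup G, ∀ x : G, x ∈ K ↔ PiEl π x

def CoPiHom (π : Set ℕ) (G : Type*) [Group G] : Prop :=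
  ∀ H : Subgroup G, H ≠ ⊥ → (∀ p : ℕ, p.Prime → p ∣ Nat.card ↥H → p ∉ π) →
    ∀ p : ℕ, p.Prime →
      p ∣ (Subgroup.centralizer (H : Set G)).relIndex (Subgroup.normalizer (H : Set G)) → p ∉ π

variable [Finite G] {π : Set ℕ}

theorem PiEl.of_dvd {x : G} {H : Type*} [Group H] {y : H} (hx : PiEl π x)
    (h : orderOf y ∣ orderOf x) : PiEl π y := fun p hp hd => hx p hp (hd.trans h)

theorem piEl_of_card {H : Subgroup G} (hH : ∀ p : ℕ, p.Prime → p ∣ Nat.card H → p ∈ π) {x : G}
    (hx : x ∈ H) : PiEl π x := fun p hp hd =>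
  hH p hp (hd.trans (Subgroup.orderOf_mk x hx ▸ orderOf_dvd_natCard _))

theorem card_of_piEl {H : Subgroup G} (hH : ∀ x ∈ H, PiEl π x) {p : ℕ} (hp : p.Prime)
    (hd : p ∣ Nat.card H) : p ∈ π := by
  haveI := Fact.mk hp
  obtain ⟨x, hx⟩ := exists_prime_orderOf_dvd_card' p hd
  refine hH x x.2 p hp ?_
  rw [Subgroup.orderOf_coe, hx]

theorem eq_one_of_piEl_of_card {H : Subgroup G} (hH : ∀ p : ℕ, p.Prime → p ∣ Nat.card H → p ∉ π)
    {x : G} (hx : x ∈ H) (hπ : PiEl π x) : x = 1 := by
  refine orderOf_eq_one_iff.mp (by_contra fun hne => ?_)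
  obtain ⟨p, hp, hd⟩ := Nat.exists_prime_and_dvd hne
  exact hH p hp (hd.trans (Subgroup.orderOf_mk x hx ▸ orderOf_dvd_natCard _)) (hπ p hp hd)

theorem normal_of_piEl {K : Subgroup G} (hK : ∀ x : G, x ∈ K ↔ PiEl π x) : K.Normal :=
  ⟨fun n hn g => (hK _).mpr (((hK n).mp hn).of_dvd (dvd_of_eq (by
    rw [show g * n * g⁻¹ = MulAut.conj g n from rfl, MulEquiv.orderOf_eq])))⟩

theorem coprime_of_pi {a b : ℕ} (ha : ∀ p : ℕ, p.Prime → p ∣ a → p ∈ π)
    (hb : ∀ p : ℕ, p.Prime → p ∣ b → p ∉ π) : a.Coprime b :=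
  Nat.coprime_of_dvd fun p hp h1 h2 => hb p hp h2 (ha p hp h1)

/-- In a `π'`-homogeneous group a `π`-element normalizing a `π'`-subgroup centralizes it. -/
theorem CoPiHom.centralizes (hhom : CoPiHom π G) {H : Subgroup G}
    (hH : ∀ p : ℕ, p.Prime → p ∣ Nat.card H → p ∉ π) {u : G}
    (hu : u ∈ Subgroup.normalizer (H : Set G)) (hπ : PiEl π u) :
    u ∈ Subgroup.centralizer (H : Set G) := by
  rcases eq_or_ne H ⊥ with rfl | hne
  · rw [Subgroup.mem_centralizer_iff]
    intro h hh
    rw [Subgroup.coe_bot, Set.mem_singleton_iff] at hh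
    simp [hh]
  set C := (Subgroup.centralizer (H : Set G)).subgroupOf (Subgroup.normalizer (H : Set G))
  haveI : C.Normal := by
    show ((Subgroup.centralizer (H : Set G)).subgroupOf (Subgroup.normalizer (H : Set G))).Normal
    rw [← Subgroup.normalizerMonoidHom_ker]; infer_instance
  by_contra hc
  have hne' : ((⟨u, hu⟩ : Subgroup.normalizer (H : Set G)) : _ ⧸ C) ≠ 1 := fun e =>
    hc (Subgroup.mem_subgroupOf.mp ((QuotientGroup.eq_one_iff _).mp e))
  obtain ⟨p, hp, hd⟩ := Nat.exists_prime_and_dvd (orderOf_eq_one_iff.not.mpr hne')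
  refine hhom H hne hH p hp ?_ (hπ p hp (hd.trans ?_))
  · rw [Subgroup.relIndex]; exact hd.trans (orderOf_dvd_natCard _)
  · exact (orderOf_map_dvd (QuotientGroup.mk' C) _).trans (dvd_of_eq (Subgroup.orderOf_mk u hu))

theorem CoPiHom.subgroup (hhom : CoPiHom π G) (U : Subgroup G) : CoPiHom π U := by
  intro H hne hH p hp hd hpπ
  haveI := Fact.mk hp
  set C := (Subgroup.centralizer (H : Set U)).subgroupOf (Subgroup.normalizer (H : Set U))
  haveI : C.Normal := by
    show ((Subgroup.centralizer (H : Set U)).subgroupOf (Subgroup.normalizer (H : Set U))).Normal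
    rw [← Subgroup.normalizerMonoidHom_ker]; infer_instance
  obtain ⟨y, hy⟩ := exists_prime_orderOf_dvd_card' p (G := _ ⧸ C) hd
  obtain ⟨u, rfl, j, hj⟩ := Element.exists_pElement_preimage hp (QuotientGroup.mk' C)
    (QuotientGroup.mk'_surjective C) (y := y) (k := 1) (by rw [hy, pow_one])
  have hc : ((u : U) : G) ∈ Subgroup.centralizer ((H.map U.subtype : Subgroup G) : Set G) := by
    refine hhom.centralizes (fun q hq h => hH q hq ?_) ?_ (fun q hq h => ?_)
    · rwa [Subgroup.card_map_of_injective U.subtype_injective] at h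
    · exact Subgroup.le_normalizer_map U.subtype ⟨_, u.2, rfl⟩
    · rw [Subgroup.orderOf_coe, Subgroup.orderOf_coe, hj] at h
      rw [(Nat.prime_dvd_prime_iff_eq hq hp).mp (hq.dvd_of_dvd_pow h)]
      exact hpπ
  have h1 : QuotientGroup.mk' C u = 1 := (QuotientGroup.eq_one_iff u).mpr
    (Subgroup.mem_subgroupOf.mpr (by
      rw [Subgroup.mem_centralizer_iff] at hc ⊢
      exact fun h hh => Subtype.ext (hc _ ⟨h, hh, rfl⟩)))
  rw [h1, orderOf_one] at hy
  exact hp.ne_one hy.symm

/-- A group with a `π'`-homogeneous structure whose normal `π`-closed subgroup has `π`-quotient is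
`π`-closed. -/
theorem piClosed_of_pi_quotient (hhom : CoPiHom π G) (K : Subgroup G) [K.Normal] (L : Subgroup G)
    (hLK : L ≤ K) [L.Normal] (hL : ∀ x ∈ L, PiEl π x)
    (hKL : ∀ p : ℕ, p.Prime → p ∣ L.relIndex K → p ∉ π)
    (hGK : ∀ p : ℕ, p.Prime → p ∣ K.index → p ∈ π) : PiClosed π G := by
  classical
  let f := QuotientGroup.mk' L
  have hf : Function.Surjective f := QuotientGroup.mk'_surjective L
  set N := K.map f with hNdef
  haveI : N.Normal := Subgroup.Normal.map inferInstance f hf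
  have hNcard : Nat.card N = L.relIndex K := by
    rw [hNdef, ← Subgroup.relIndex_ker, QuotientGroup.ker_mk']
  have hN : ∀ p : ℕ, p.Prime → p ∣ Nat.card N → p ∉ π := fun p hp h => hKL p hp (hNcard ▸ h)
  -- `p`-elements centralize each invariant Sylow subgroup of `N`
  have step : ∀ (p : ℕ), p.Prime → p ∈ π → ∀ x : G, (∃ j, orderOf x = p ^ j) → ∀ n ∈ N,
      f x * n = n * f x := by
    intro p hp hpπ x ⟨j, hj⟩
    haveI := Fact.mk hp
    let Z := (Subgroup.centralizer ({f x} : Set (G ⧸ L))).subgroupOf N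
    suffices Z = ⊤ by
      intro n hn
      have : (⟨n, hn⟩ : N) ∈ Z := this ▸ Subgroup.mem_top _
      exact (Subgroup.mem_centralizer_singleton_iff.mp (Subgroup.mem_subgroupOf.mp this)).symm
    rw [← Subgroup.index_eq_one]
    by_contra hne
    obtain ⟨q, hq, hqd⟩ := Nat.exists_prime_and_dvd hne
    haveI := Fact.mk hq
    have hqπ : q ∉ π := hN q hq (hqd.trans (Subgroup.index_dvd_card _))
    -- an invariant Sylow subgroup
    let φ : MulAut N := MulAut.conjNormal (f x)
    let A : Subgroup (MulAut N) := Subgroup.zpowers φ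
    have hA : IsPGroup p A := by
      obtain ⟨i, -, hi⟩ := (Nat.dvd_prime_pow hp).mp
        (hj ▸ ((orderOf_map_dvd (MulAut.conjNormal (H := N)) (f x)).trans (orderOf_map_dvd f x)) :
          orderOf φ ∣ p ^ j)
      exact IsPGroup.of_card (n := i) (by rw [Nat.card_zpowers, hi])
    have hnd : ¬ p ∣ Nat.card (Sylow q N) := by
      intro h
      obtain ⟨Q₀⟩ : Nonempty (Sylow q N) := inferInstance
      refine hN p hp (h.trans ?_) hpπ
      exact (Sylow.card_dvd_index Q₀).trans (Subgroup.index_dvd_card _)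
    obtain ⟨Q, hQ⟩ := hA.nonempty_fixed_point_of_prime_not_dvd_card (Sylow q N) hnd
    have hQfix : (MulAut.conjNormal (f x) : MulAut N) • Q = Q := hQ ⟨φ, Subgroup.mem_zpowers φ⟩
    -- lift to `K`
    let ψ : K →* N := f.subgroupMap K
    have hψ : Function.Surjective ψ := f.subgroupMap_surjective K
    obtain ⟨R, hR⟩ := Sylow.mapSurjective_surjective hψ q Q
    let R' : Subgroup G := (R : Subgroup K).map K.subtype
    have hR'K : R' ≤ K := Subgroup.map_subtype_le _
    have hRQ : ∀ w ∈ R', ∃ n : N, n ∈ (Q : Subgroup N) ∧ (n : G ⧸ L) = f w := by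
      rintro _ ⟨r, hr, rfl⟩
      exact ⟨ψ r, by rw [← hR, Sylow.coe_mapSurjective]; exact ⟨r, hr, rfl⟩, rfl⟩
    have hQR : ∀ n : N, n ∈ (Q : Subgroup N) → ∃ w ∈ R', f w = (n : G ⧸ L) := by
      intro n hn
      rw [← hR, Sylow.coe_mapSurjective] at hn
      obtain ⟨r, hr, rfl⟩ := hn
      exact ⟨r, ⟨r, hr, rfl⟩, rfl⟩
    set W := L ⊔ R'
    have hfW : ∀ {w : G}, w ∈ W ↔ ∃ n : N, n ∈ (Q : Subgroup N) ∧ (n : G ⧸ L) = f w := by
      intro w
      constructor
      · intro hw
        obtain ⟨l, hl, r, hr, rfl⟩ := Subgroup.mem_sup_of_normal_left.mp hw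
        obtain ⟨n, hn, he⟩ := hRQ r hr
        exact ⟨n, hn, by rw [he, map_mul, show f l = 1 from (QuotientGroup.eq_one_iff l).mpr hl, one_mul]⟩
      · rintro ⟨n, hn, he⟩
        obtain ⟨r, hr, hr'⟩ := hQR n hn
        have h1 : w * r⁻¹ ∈ L := by
          rw [← QuotientGroup.eq_one_iff]
          show f (w * r⁻¹) = 1
          rw [map_mul, map_inv, hr', he, mul_inv_cancel]
        have := Subgroup.mul_mem W (Subgroup.mem_sup_left h1) (Subgroup.mem_sup_right hr)
        simpa using this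
    have hxW : ∀ w ∈ W, x * w * x⁻¹ ∈ W := by
      intro w hw
      obtain ⟨n, hn, he⟩ := hfW.mp hw
      refine hfW.mpr ⟨(MulAut.conjNormal (f x) : MulAut N) n, ?_, ?_⟩
      · have h1 : (MulAut.conjNormal (f x) : MulAut N) • n ∈
            (((MulAut.conjNormal (f x) : MulAut N) • Q : Sylow q N) : Subgroup N) := by
          rw [Sylow.pointwise_smul_def]
          exact Subgroup.smul_mem_pointwise_smul n _ _ hn
        rw [hQfix] at h1
        exact h1
      · rw [MulAut.conjNormal_apply, he, map_mul, map_mul, map_inv]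
    -- `R'` and its conjugate are Sylow in `W`
    have hR'p : IsPGroup q R' := R.isPGroup'.map _
    have hidxW : ¬ q ∣ (R'.subgroupOf W).index := by
      intro h
      have h1 : R'.relIndex W ∣ R'.relIndex K :=
        ⟨W.relIndex K, (Subgroup.relIndex_mul_relIndex R' W K le_sup_right (sup_le hLK hR'K)).symm⟩
      have h2 : q ∣ R'.relIndex K := dvd_trans h h1
      rw [Subgroup.relIndex, show R'.subgroupOf K = (R : Subgroup K) from Subgroup.comap_map_eq_self_of_injective K.subtype_injective _] at h2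
      · exact R.not_dvd_index h2
    let S : Sylow q W := (hR'p.comap_of_injective W.subtype W.subtype_injective).toSylow hidxW
    let cx : MulAut W := MulEquiv.ofBijective (MonoidHom.mk' (fun w : W => (⟨x * w * x⁻¹, hxW _ w.2⟩ : W))
      (fun a b => Subtype.ext (by
        show x * ((a : G) * b) * x⁻¹ = (x * a * x⁻¹) * (x * b * x⁻¹); group)))
      (Finite.injective_iff_bijective.mp fun a b h => by
        have := congrArg Subtype.val h
        exact Subtype.ext (mul_left_cancel (mul_right_cancel this)))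
    obtain ⟨w, hw⟩ := MulAction.exists_smul_eq W (cx • S) S
    set m := (w : G) * x
    have hsub : ∀ r ∈ R', m * r * m⁻¹ ∈ R' := by
      intro r hr
      have hrW : r ∈ W := Subgroup.mem_sup_right hr
      have h1 : cx • (⟨r, hrW⟩ : W) ∈ ((cx • S : Sylow q W) : Subgroup W) := by
        rw [Sylow.pointwise_smul_def]
        exact Subgroup.smul_mem_pointwise_smul _ _ _ hr
      have h2 : MulAut.conj w • (cx • (⟨r, hrW⟩ : W)) ∈ ((w • (cx • S) : Sylow q W) : Subgroup W) := by
        rw [Sylow.coe_subgroup_smul]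
        exact Subgroup.smul_mem_pointwise_smul _ _ _ h1
      rw [hw] at h2
      have h3 : ((MulAut.conj w • (cx • (⟨r, hrW⟩ : W)) : W) : G) ∈ R' := h2
      have e : ((MulAut.conj w • (cx • (⟨r, hrW⟩ : W)) : W) : G) = m * r * m⁻¹ := by
        show (w : G) * (x * r * x⁻¹) * (w : G)⁻¹ = _
        simp [m, mul_assoc]
      exact e ▸ h3
    have hmn : m ∈ Subgroup.normalizer (R' : Set G) := by
      rw [Subgroup.mem_normalizer_iff_map_conj_eq]
      refine Subgroup.eq_of_le_of_card_ge ?_ ?_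
      · rintro _ ⟨r, hr, rfl⟩; exact hsub r hr
      · exact (Subgroup.card_map_of_injective (MulEquiv.injective (MulAut.conj m))).ge
    obtain ⟨l, hl, r, hr, hlr⟩ := Subgroup.mem_sup_of_normal_left.mp w.2
    have key : ∀ rr ∈ R', f x * f rr = f rr * f x := by
      -- the element `(r' ⁻¹) * m` with `r' ∈ R'` congruent to `x`
      have hgm : r⁻¹ * m ∈ Subgroup.normalizer (R' : Set G) :=
        Subgroup.mul_mem _ (Subgroup.inv_mem _ (Subgroup.le_normalizer hr)) hmn
      have hfgm : f (r⁻¹ * m) = f x := by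
        rw [show m = (w : G) * x from rfl, ← hlr, map_mul, map_mul, map_mul,
          show f l = 1 from (QuotientGroup.eq_one_iff l).mpr hl, one_mul, map_inv, inv_mul_cancel_left]
      have hu := Subgroup.zpowers_le.mpr hgm (Element.pPart_mem_zpowers p (r⁻¹ * m))
      have hfu : f (Element.pPart p (r⁻¹ * m)) = f x := by
        rw [(Element.map_pPart hp f _).1, hfgm]
        obtain ⟨i, -, hi⟩ := (Nat.dvd_prime_pow hp).mp (hj ▸ orderOf_map_dvd f x)
        exact (Element.pPart_eq_self hp hi).1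
      have hc := hhom.centralizes (H := R') (fun s hs hd => ?_) hu (fun s hs hd => ?_)
      · intro rr hrr
        rw [← hfu, ← map_mul, ← map_mul, (Subgroup.mem_centralizer_iff.mp hc rr hrr)]
      · obtain ⟨i, hi⟩ := hR'p.exists_card_eq
        rw [hi] at hd
        rw [(Nat.prime_dvd_prime_iff_eq hs hq).mp (hs.dvd_of_dvd_pow hd)]
        exact hqπ
      · rw [(Element.orderOf_pPart hp _ (orderOf_pos _).ne').1] at hd
        rw [(Nat.prime_dvd_prime_iff_eq hs hp).mp (hs.dvd_of_dvd_pow hd)]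
        exact hpπ
    have hQZ : (Q : Subgroup N) ≤ Z := by
      intro n hn
      obtain ⟨rr, hrr, he⟩ := hQR n hn
      rw [Subgroup.mem_subgroupOf, Subgroup.mem_centralizer_singleton_iff, ← he]
      exact (key rr hrr).symm
    exact Q.not_dvd_index (hqd.trans (Subgroup.index_dvd_of_le hQZ))
  -- all `π`-elements centralize `N`
  set C := Subgroup.centralizer (N : Set (G ⧸ L))
  have hC : ∀ x : G, PiEl π x → f x ∈ C := by
    intro x
    induction hn : orderOf x using Nat.strong_induction_on generalizing x with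
    | _ n ih =>
      subst hn
      intro hx
      by_cases h1 : x = 1
      · subst h1; rw [map_one]; exact one_mem _
      obtain ⟨p, hp, hpd⟩ := Nat.exists_prime_and_dvd (orderOf_eq_one_iff.not.mpr h1)
      rw [← Element.pPart_mul_pComplPart p x, map_mul]
      refine mul_mem ?_ ?_
      · rw [Subgroup.mem_centralizer_iff]
        exact fun n hn => (step p hp (hx p hp hpd) _
          ⟨_, (Element.orderOf_pPart hp x (orderOf_pos x).ne').1⟩ n hn).symm
      · have hd : orderOf (Element.pComplPart p x) ∣ orderOf x :=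
          orderOf_dvd_of_mem_zpowers (Element.pComplPart_mem_zpowers p x)
        refine ih _ (lt_of_le_of_ne (Nat.le_of_dvd (orderOf_pos x) hd) fun e => ?_) _ rfl (hx.of_dvd hd)
        exact hp.ne_one ((Element.coprime_orderOf_pComplPart hp x).symm.eq_one_of_dvd (e ▸ hpd))
  -- the `π`-part of `C`
  set ZN := N.subgroupOf C
  have hZc : ∀ z : C, z ∈ ZN → ∀ c : C, c * z = z * c := fun z hz c =>
    Subtype.ext (Subgroup.mem_centralizer_iff.mp c.2 z hz).symm
  have hZcard : ∀ p : ℕ, p.Prime → p ∣ Nat.card ZN → p ∉ π := fun p hp h => hN p hp (h.trans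
    (Subgroup.card_comap_dvd_of_injective N C.subtype C.subtype_injective))
  have hidx : ∀ p : ℕ, p.Prime → p ∣ ZN.index → p ∈ π := fun p hp h => hGK p hp (by
    have h1 : ZN.index ∣ N.index := Subgroup.relIndex_dvd_index_of_normal N C
    have h2 : N.index = K.index := by
      rw [hNdef, Subgroup.index_map_eq K hf (by rw [QuotientGroup.ker_mk']; exact hLK)]
    exact h2 ▸ h.trans h1)
  have hcop : (Nat.card ZN).Coprime ZN.index := (coprime_of_pi hidx hZcard).symm
  obtain ⟨M, hM⟩ := Subgroup.exists_right_complement'_of_coprime hcop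
  haveI : M.Normal := by
    refine ⟨fun a ha c => ?_⟩
    obtain ⟨⟨⟨z, hz⟩, ⟨b, hb⟩⟩, hzb⟩ := hM.2 c
    have hzb' : z * b = c := hzb
    rw [← hzb', show z * b * a * (z * b)⁻¹ = z * (b * a * b⁻¹) * z⁻¹ by group,
      ← hZc z hz (b * a * b⁻¹), mul_inv_cancel_right]
    exact mul_mem (mul_mem hb ha) (inv_mem hb)
  have hMcard : Nat.card M = ZN.index := hM.symm.index_eq_card.symm
  let M' : Subgroup G := (M.map C.subtype).comap f
  refine ⟨M', fun x => ⟨fun hx p hp hd => ?_, fun hx => ?_⟩⟩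
  · obtain ⟨c, hc, hcx⟩ := (hx : f x ∈ M.map C.subtype)
    by_contra hpπ
    -- the image has `π`-order, so the `p`-part lies in `L`
    have h1 : (Nat.Coprime (orderOf (f x)) p) := by
      refine ((Nat.Prime.coprime_iff_not_dvd hp).mpr fun h => hpπ (hidx p hp ?_)).symm
      rw [← hMcard]
      refine h.trans ?_
      rw [← hcx, show C.subtype c = (c : G ⧸ L) from rfl, Subgroup.orderOf_coe,
        ← Subgroup.orderOf_mk c hc]
      exact orderOf_dvd_natCard _
    have h2 : Element.pPart p x ∈ L := by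
      rw [← QuotientGroup.eq_one_iff]
      show f (Element.pPart p x) = 1
      rw [(Element.map_pPart hp f x).1]
      exact (Element.pPart_eq_one hp h1).1
    refine hpπ (hL _ h2 p hp ?_)
    rw [(Element.orderOf_pPart hp x (orderOf_pos x).ne').1]
    exact dvd_pow_self p (hp.factorization_pos_of_dvd (orderOf_pos x).ne' hd).ne'
  · show f x ∈ M.map C.subtype
    refine ⟨⟨f x, hC x hx⟩, ?_, rfl⟩
    show (⟨f x, hC x hx⟩ : C) ∈ M
    rw [← QuotientGroup.eq_one_iff]
    refine orderOf_eq_one_iff.mp (Nat.eq_one_of_dvd_coprimes (coprime_of_pi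
      (hx.of_dvd (orderOf_map_dvd f x) : ∀ p : ℕ, p.Prime → p ∣ orderOf (f x) → p ∈ π) hZcard)
      ((orderOf_map_dvd (QuotientGroup.mk' M) (⟨f x, hC x hx⟩ : C)).trans
        (dvd_of_eq (Subgroup.orderOf_mk _ _))) ?_)
    rw [← hM.index_eq_card]
    exact orderOf_dvd_natCard _

/-- If the quotient by a `π`-closed normal subgroup is a `π'`-group, the group is `π`-closed. -/
theorem piClosed_of_coPi_quotient (K : Subgroup G) [K.Normal]
    (hK : PiClosed π K) (hGK : ∀ p : ℕ, p.Prime → p ∣ K.index → p ∉ π) : PiClosed π G := by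
  obtain ⟨L, hL⟩ := hK
  have hin : ∀ x : G, PiEl π x → x ∈ K := fun x hx => by
    rw [← QuotientGroup.eq_one_iff]
    refine orderOf_eq_one_iff.mp (Nat.eq_one_of_dvd_coprimes (coprime_of_pi hx hGK)
      (orderOf_map_dvd (QuotientGroup.mk' K) x) (orderOf_dvd_natCard _))
  refine ⟨L.map K.subtype, fun x => ⟨?_, fun hx => ⟨⟨x, hin x hx⟩, (hL _).mpr (hx.of_dvd
    (dvd_of_eq (Subgroup.orderOf_mk _ _))), rfl⟩⟩⟩
  rintro ⟨k, hk, rfl⟩
  exact ((hL k).mp hk).of_dvd (dvd_of_eq (Subgroup.orderOf_coe k))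

theorem CoPiHom.piClosed_of_equiv {H : Type*} [Group H] [Finite H] (e : G ≃* H)
    (h : PiClosed π G) : PiClosed π H := by
  obtain ⟨K, hK⟩ := h
  refine ⟨K.map e.toMonoidHom, fun y => ?_⟩
  rw [Subgroup.mem_map_equiv, hK]
  have he : orderOf (e.symm y) = orderOf y := MulEquiv.orderOf_eq e.symm y
  exact ⟨fun h => h.of_dvd (dvd_of_eq he.symm), fun h => h.of_dvd (dvd_of_eq he)⟩

theorem piClosed_iff_index {K : Subgroup G} [K.Normal] (hK : ∀ x : G, x ∈ K ↔ PiEl π x) :
    (∀ p : ℕ, p.Prime → p ∣ K.index → p ∉ π) ∧ ∀ p : ℕ, p.Prime → p ∣ Nat.card K → p ∈ π := by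
  refine ⟨fun p hp hd hpπ => ?_, fun p hp hd => card_of_piEl (fun x hx => (hK x).mp hx) hp hd⟩
  haveI := Fact.mk hp
  obtain ⟨y, hy⟩ := exists_prime_orderOf_dvd_card' p (G := G ⧸ K) hd
  obtain ⟨x, rfl, j, hj⟩ := Element.exists_pElement_preimage hp (QuotientGroup.mk' K)
    (QuotientGroup.mk'_surjective K) (y := y) (k := 1) (by rw [hy, pow_one])
  have hx : x ∈ K := (hK x).mpr fun q hq hd' => by
    rw [hj] at hd'
    rw [(Nat.prime_dvd_prime_iff_eq hq hp).mp (hq.dvd_of_dvd_pow hd')]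
    exact hpπ
  have h1 : (QuotientGroup.mk' K) x = 1 := (QuotientGroup.eq_one_iff x).mpr hx
  rw [h1, orderOf_one] at hy
  exact hp.ne_one hy.symm

theorem piClosed_extension (hhom : CoPiHom π G) (K : Subgroup G) [K.Normal]
    (hK : PiClosed π K) (hQ : PiClosed π (G ⧸ K)) : PiClosed π G := by
  obtain ⟨M, hM⟩ := hQ
  haveI := normal_of_piEl hM
  obtain ⟨hM1, hM2⟩ := piClosed_iff_index hM
  set U := M.comap (QuotientGroup.mk' K) with hU
  haveI : U.Normal := Subgroup.Normal.comap inferInstance _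
  have hKU : K ≤ U := fun k hk => by
    show (QuotientGroup.mk' K) k ∈ M
    rw [show (QuotientGroup.mk' K) k = 1 from (QuotientGroup.eq_one_iff k).mpr hk]
    exact one_mem _
  refine piClosed_of_coPi_quotient U ?_ (by
    rwa [hU, Subgroup.index_comap_of_surjective M (QuotientGroup.mk'_surjective K)])
  haveI : (K.subgroupOf U).Normal := inferInstance
  obtain ⟨L₀, hL₀⟩ := hK
  haveI := normal_of_piEl hL₀
  obtain ⟨hL1, hL2⟩ := piClosed_iff_index hL₀
  set L := ((L₀.map K.subtype).subgroupOf U) with hL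
  have hmem : ∀ x : U, x ∈ L ↔ ∃ hx : (x : G) ∈ K, PiEl π x := by
    intro x
    constructor
    · rintro ⟨k, hk, hkx⟩
      have hkx : (k : G) = (x : G) := hkx
      have hxK : (x : G) ∈ K := hkx ▸ k.2
      refine ⟨hxK, ((hL₀ k).mp hk).of_dvd ?_⟩
      rw [← Subgroup.orderOf_coe x, ← Subgroup.orderOf_coe k]
      exact dvd_of_eq (congrArg orderOf hkx).symm
    · rintro ⟨hxK, hx⟩
      refine ⟨⟨x, hxK⟩, (hL₀ _).mpr (hx.of_dvd ?_), rfl⟩
      rw [Subgroup.orderOf_mk, Subgroup.orderOf_coe]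
  haveI : L.Normal := ⟨fun n hn g => by
    obtain ⟨h1, h2⟩ := (hmem n).mp hn
    exact (hmem _).mpr ⟨‹K.Normal›.conj_mem _ h1 g, h2.of_dvd (dvd_of_eq (by
      rw [show g * n * g⁻¹ = MulAut.conj g n from rfl, MulEquiv.orderOf_eq]))⟩⟩
  refine piClosed_of_pi_quotient (hhom.subgroup U) (K.subgroupOf U) L
    (fun x hx => Subgroup.mem_subgroupOf.mpr ((hmem x).mp hx).1)
    (fun x hx => ((hmem x).mp hx).2) (fun p hp hd => hL1 p hp ?_) (fun p hp hd => hM2 p hp ?_)
  · rw [hL, Subgroup.relIndex_subgroupOf hKU, Subgroup.relIndex] at hd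
    rwa [show (L₀.map K.subtype).subgroupOf K = L₀ from
      Subgroup.comap_map_eq_self_of_injective K.subtype_injective _] at hd
  · refine hd.trans (dvd_of_eq ?_)
    rw [← Subgroup.relIndex]
    conv_lhs => rw [← QuotientGroup.ker_mk' K]
    rw [Subgroup.relIndex_ker, hU, Subgroup.map_comap_eq_self_of_surjective
      (QuotientGroup.mk'_surjective K)]

end Cfsg.Agent.FGS75
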