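import Mathlib
import Cfsg.Agent.Arith.FiniteField

set_option autoImplicit false

/-! Linear maps of prime order `q` without fixed points on `F_p`-spaces with `p` a primitive root
modulo `q`, and the converse criterion. -/

namespace Cfsg.Agent.FGS75

open Polynomial

section

variable {p q : ℕ} [Fact p.Prime] [Fact q.Prime] {V : Type*} [AddCommGroup V] [Module (ZMod p) V]
  [Finite V]

theorem pow_eq_pow_of_modEq {M : Type*} [Monoid M] {x : M} (hx : x ^ q = 1) {a b : ℕ}
    (h : a ≡ b [MOD q]) : x ^ a = x ^ b := by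
  rw [← Nat.div_add_mod a q, ← Nat.div_add_mod b q, pow_add, pow_add, pow_mul, pow_mul, hx, h]
  simp

theorem exists_inv_mod {i : ℕ} (hi : ¬ q ∣ i) : ∃ k : ℕ, i * k ≡ 1 [MOD q] := by
  refine ⟨((i : ZMod q)⁻¹).val, ?_⟩
  rw [← ZMod.natCast_eq_natCast_iff, Nat.cast_mul, ZMod.natCast_zmod_val, Nat.cast_one]
  exact mul_inv_cancel₀ fun h => hi ((ZMod.natCast_eq_zero_iff i q).mp h)

theorem aeval_comp_pow (T : Module.End (ZMod p) V) (g : (ZMod p)[X]) (k : ℕ) :
    aeval T (g.comp (X ^ k)) = aeval (T ^ k) g := by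
  rw [aeval_comp, map_pow, aeval_X]

theorem aeval_semiconj {T S : Module.End (ZMod p) V} (A : V ≃ₗ[ZMod p] V)
    (h : ∀ v, A (T v) = S (A v)) (g : (ZMod p)[X]) (v : V) :
    A (aeval T g v) = aeval S g (A v) := by
  induction g using Polynomial.induction_on' with
  | add a b ha hb => simp [map_add, ha, hb]
  | monomial n c =>
    have hn : ∀ w, A ((T ^ n) w) = (S ^ n) (A w) := by
      induction n with
      | zero => intro w; rfl
      | succ n ih =>
        intro w
        rw [pow_succ, pow_succ, Module.End.mul_apply, Module.End.mul_apply, ih, h]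
    simp only [aeval_monomial, ← Algebra.smul_def, LinearMap.smul_apply, map_smul, hn]

theorem cyclotomic_primitive (hpq : p ≠ q) {P : (ZMod p)[X]} (hP : Irreducible P)
    (hd : P ∣ cyclotomic q (ZMod p)) : P.natDegree = orderOf (p : ZMod q) := by
  have hp : p.Prime := Fact.out
  have hq : q.Prime := Fact.out
  have hr : ¬ q ∣ Fintype.card (ZMod p) := by
    rw [ZMod.card]; exact fun h => hpq ((Nat.prime_dvd_prime_iff_eq hq hp).mp h).symm
  rw [Arith.natDegree_irreducible_factor_cyclotomic hr hP hd, ZMod.card]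

/-- If the normalizer of `T` is transitive on nonzero vectors and induces all powers on `T`,
then `p` is a primitive root modulo `q`. -/
theorem orderOf_eq_sub_one_of_transitive (hpq : p ≠ q) [Nontrivial V] (T : Module.End (ZMod p) V)
    (hTq : T ^ q = 1) (hfix : ∀ v, T v = v → v = 0)
    (htrans : ∀ v w : V, v ≠ 0 → w ≠ 0 → ∃ (A : V ≃ₗ[ZMod p] V) (i : ℕ), ¬ q ∣ i ∧
      (∀ u, A (T u) = (T ^ i) (A u)) ∧ A v = w)
    (hall : ∀ i : ℕ, ¬ q ∣ i → ∃ A : V ≃ₗ[ZMod p] V, ∀ u, A (T u) = (T ^ i) (A u)) :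
    orderOf (p : ZMod q) = q - 1 := by
  classical
  have hp : p.Prime := Fact.out
  have hq : q.Prime := Fact.out
  haveI : Module.Finite (ZMod p) V := Module.Finite.of_finite
  have hint : IsIntegral (ZMod p) T :=
    ⟨X ^ q - 1, monic_X_pow_sub_C (1 : ZMod p) hq.ne_zero, by simp [hTq]⟩
  set m := minpoly (ZMod p) T with hm
  have hmne : m ≠ 0 := minpoly.ne_zero hint
  -- a vector with irreducible annihilator
  obtain ⟨f, hf, hfm⟩ := WfDvdMonoid.exists_irreducible_factor
    (minpoly.not_isUnit (ZMod p) T) hmne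
  obtain ⟨r, hr⟩ := hfm
  have hrne : aeval T r ≠ 0 := by
    intro h
    have h1 := natDegree_le_of_dvd (minpoly.dvd (ZMod p) T h) (fun h0 => hmne (by rw [hm, hr, h0, mul_zero]))
    rw [hr, natDegree_mul hf.ne_zero (fun h0 => hmne (by rw [hm, hr, h0, mul_zero]))] at h1
    have := hf.natDegree_pos
    omega
  obtain ⟨w₀, hw₀⟩ : ∃ w, aeval T r w ≠ 0 := by
    by_contra hc; push Not at hc; exact hrne (LinearMap.ext hc)
  set v₀ := aeval T r w₀ with hv₀
  have hfv : aeval T f v₀ = 0 := by
    rw [hv₀, ← Module.End.mul_apply, ← map_mul, ← hr, minpoly.aeval, LinearMap.zero_apply]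
  have claim : ∀ (v : V) (g : (ZMod p)[X]), aeval T g v ≠ 0 →
      ∃ s : (ZMod p)[X], aeval T s (aeval T g v) = v := by
    intro v g hg
    have hv : v ≠ 0 := fun h => hg (by rw [h, map_zero])
    obtain ⟨A, i, hi, hA, hAv⟩ := htrans v₀ v hw₀ hv
    obtain ⟨k, hk⟩ := exists_inv_mod (q := q) hi
    set h := g.comp (X ^ k)
    have hgh : aeval (T ^ i) h = aeval T g := by
      rw [aeval_comp_pow, ← pow_mul, pow_eq_pow_of_modEq hTq hk, pow_one]
    have h1 : aeval T h v₀ ≠ 0 := fun e => hg (by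
      rw [← hAv, ← hgh, ← aeval_semiconj A hA, e, map_zero])
    have hco : IsCoprime f h := hf.coprime_iff_not_dvd.mpr fun ⟨c, hc⟩ => h1 (by
      rw [hc, mul_comm, map_mul, Module.End.mul_apply, hfv, map_zero])
    obtain ⟨a, b, hab⟩ := hco
    have h2 : aeval T b (aeval T h v₀) = v₀ := by
      have := LinearMap.congr_fun (congrArg (aeval T) hab) v₀
      simpa [map_add, map_mul, Module.End.mul_apply, hfv] using this
    refine ⟨b.comp (X ^ i), ?_⟩
    rw [aeval_comp_pow, ← hgh, ← hAv, ← aeval_semiconj A hA, ← aeval_semiconj A hA, h2]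
  have hinj : ∀ g : (ZMod p)[X], aeval T g ≠ 0 → ∀ u, aeval T g u = 0 → u = 0 := by
    intro g hg u hu
    obtain ⟨w, hw⟩ : ∃ w, aeval T g w ≠ 0 := by
      by_contra hc; push Not at hc; exact hg (LinearMap.ext hc)
    have hsum : aeval T g (u + w) = aeval T g w := by rw [map_add, hu, zero_add]
    obtain ⟨s₁, h₁⟩ := claim (u + w) g (by rwa [hsum])
    obtain ⟨s₂, h₂⟩ := claim w g hw
    rw [hsum] at h₁
    have hu' : aeval T ((s₁ - s₂) * g) w = u := by
      rw [map_mul, map_sub, Module.End.mul_apply, LinearMap.sub_apply, h₁, h₂, add_sub_cancel_right]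
    by_contra hne
    obtain ⟨s₃, h₃⟩ := claim w ((s₁ - s₂) * g) (by rwa [hu'])
    rw [hu'] at h₃
    apply hw
    rw [← h₃, ← Module.End.mul_apply, ← map_mul, mul_comm, map_mul, Module.End.mul_apply, hu, map_zero]
  have hmirr : Irreducible m := by
    refine ⟨minpoly.not_isUnit _ _, fun a b hab => ?_⟩
    have hane : a ≠ 0 := fun h => hmne (by rw [hab, h, zero_mul])
    have hbne : b ≠ 0 := fun h => hmne (by rw [hab, h, mul_zero])
    have hdeg : m.natDegree = a.natDegree + b.natDegree := by rw [hab, natDegree_mul hane hbne]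
    by_cases ha : aeval T a = 0
    · right
      have := natDegree_le_of_dvd (minpoly.dvd (ZMod p) T ha) hane
      rw [← hm] at this
      exact isUnit_iff_degree_eq_zero.mpr (by rw [degree_eq_natDegree hbne, show b.natDegree = 0 by omega]; rfl)
    · left
      have hb : aeval T b = 0 := LinearMap.ext fun v => hinj a ha _ (by
        rw [← Module.End.mul_apply, ← map_mul, ← hab, minpoly.aeval, LinearMap.zero_apply])
      have := natDegree_le_of_dvd (minpoly.dvd (ZMod p) T hb) hbne
      rw [← hm] at this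
      exact isUnit_iff_degree_eq_zero.mpr (by rw [degree_eq_natDegree hane, show a.natDegree = 0 by omega]; rfl)
  have hT1 : T ≠ 1 := by
    intro h
    obtain ⟨v, hv⟩ := exists_ne (0 : V)
    exact hv (hfix v (by rw [h]; rfl))
  have hnot1 : ¬ m ∣ X - 1 := fun h => hT1 (by
    have := aeval_eq_zero_of_dvd_aeval_eq_zero h (minpoly.aeval (ZMod p) T)
    simpa [sub_eq_zero] using this)
  have hmc : m ∣ cyclotomic q (ZMod p) := by
    have hdvd : m ∣ cyclotomic q (ZMod p) * (X - 1) := by
      rw [cyclotomic_prime_mul_X_sub_one]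
      exact minpoly.dvd _ T (by simp [hTq])
    exact (hmirr.prime.dvd_mul.mp hdvd).resolve_right hnot1
  have hd := cyclotomic_primitive hpq hmirr hmc
  -- all powers of a root are roots
  haveI := Fact.mk hmirr
  set θ := AdjoinRoot.root m
  have hθm : aeval θ m = 0 := by rw [AdjoinRoot.aeval_eq, AdjoinRoot.mk_self]
  have hθq : θ ^ q = 1 := by
    have h := aeval_eq_zero_of_dvd_aeval_eq_zero
      (hmc.trans (cyclotomic.dvd_X_pow_sub_one q (ZMod p))) hθm
    simpa [sub_eq_zero] using h
  have hθ1 : θ ≠ 1 := fun h => hnot1 (by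
    rw [← AdjoinRoot.mk_eq_zero, map_sub, AdjoinRoot.mk_X, map_one]
    exact sub_eq_zero.mpr h)
  have hord : orderOf θ = q := orderOf_eq_prime hθq hθ1
  have hroot : ∀ i ∈ Finset.Ico 1 q, aeval (θ ^ i) m = 0 := by
    intro i hi
    rw [Finset.mem_Ico] at hi
    obtain ⟨A, hA⟩ := hall i (Nat.not_dvd_of_pos_of_lt hi.1 hi.2)
    have h0 : aeval (T ^ i) m = 0 := LinearMap.ext fun v => by
      have := aeval_semiconj A hA m (A.symm v)
      rw [minpoly.aeval, LinearMap.zero_apply, map_zero, A.apply_symm_apply] at this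
      exact this.symm
    obtain ⟨c, hc⟩ := minpoly.dvd (ZMod p) T (show aeval T (m.comp (X ^ i)) = 0 by
      rw [aeval_comp_pow, h0])
    rw [show θ ^ i = aeval θ ((X : (ZMod p)[X]) ^ i) by simp, ← aeval_comp, hc, map_mul, hθm, zero_mul]
  have hcard : q - 1 ≤ m.natDegree := by
    have hsub : (Finset.Ico 1 q).image (θ ^ ·) ⊆ (m.aroots (AdjoinRoot m)).toFinset := by
      intro z hz
      obtain ⟨i, hi, rfl⟩ := Finset.mem_image.mp hz
      rw [Multiset.mem_toFinset, mem_aroots]
      exact ⟨hmne, hroot i hi⟩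
    have h1 := (Finset.card_le_card hsub).trans (Multiset.toFinset_card_le _)
    rw [Finset.card_image_of_injOn, Nat.card_Ico] at h1
    · refine h1.trans ((card_roots' _).trans ?_)
      rw [natDegree_map]
    · intro a ha b hb hab
      rw [Finset.coe_Ico, Set.mem_Ico] at ha hb
      exact pow_injOn_Iio_orderOf (show a < orderOf θ by omega) (show b < orderOf θ by omega) hab
  have hdvd : orderOf (p : ZMod q) ∣ q - 1 := ZMod.orderOf_dvd_card_sub_one fun h =>
    hpq ((Nat.prime_dvd_prime_iff_eq hq hp).mp ((ZMod.natCast_eq_zero_iff p q).mp h)).symm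
  have := Nat.le_of_dvd (by have := hq.two_le; omega) hdvd
  omega

theorem exists_linearEquiv_single {K W : Type*} [Field K] [AddCommGroup W] [Module K W]
    [Module.Finite K W] {n : ℕ} (hn : Module.finrank K W = n + 1) {v : W} (hv : v ≠ 0) :
    ∃ e : W ≃ₗ[K] (Fin (n + 1) → K), e v = Pi.single 0 1 := by
  classical
  have hs : LinearIndepOn K id ({v} : Set W) := LinearIndepOn.singleton (R := K) hv
  let b := Module.Basis.extend hs
  haveI : Fintype (hs.extend (Set.subset_univ ({v} : Set W))) := FiniteDimensional.fintypeBasisIndex b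
  have hvmem : v ∈ hs.extend (Set.subset_univ ({v} : Set W)) :=
    hs.subset_extend _ rfl
  let e₀ := Fintype.equivFinOfCardEq ((Module.finrank_eq_card_basis b).symm.trans hn)
  let σ := e₀.trans (Equiv.swap (e₀ ⟨v, hvmem⟩) 0)
  refine ⟨(b.reindex σ).equivFun, ?_⟩
  have hb : (b.reindex σ) 0 = v := by
    rw [Module.Basis.reindex_apply,
      show σ.symm 0 = ⟨v, hvmem⟩ from σ.symm_apply_eq.mpr (by simp [σ])]
    exact Module.Basis.extend_apply_self hs _
  refine (congrArg _ hb.symm).trans ?_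
  funext j
  rw [Module.Basis.equivFun_apply, Module.Basis.repr_self]
  simp [Finsupp.single_apply, Pi.single_apply, eq_comm]

theorem natDegree_cyclotomic_irreducible (hpq : p ≠ q) (hprim : orderOf (p : ZMod q) = q - 1) :
    Irreducible (cyclotomic q (ZMod p)) ∧ (cyclotomic q (ZMod p)).natDegree = q - 1 := by
  have hq : q.Prime := Fact.out
  have hdeg : (cyclotomic q (ZMod p)).natDegree = q - 1 := by
    rw [natDegree_cyclotomic, Nat.totient_prime hq]
  have hnu : ¬ IsUnit (cyclotomic q (ZMod p)) := fun h => by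
    have := natDegree_eq_zero_of_isUnit h
    have := hq.two_le
    omega
  obtain ⟨P, hP, hd⟩ := WfDvdMonoid.exists_irreducible_factor hnu (cyclotomic_ne_zero q _)
  have h := cyclotomic_primitive hpq hP hd
  rw [hprim] at h
  exact ⟨(associated_of_dvd_of_natDegree_le hd (cyclotomic_ne_zero q _) (by omega)).irreducible hP, hdeg⟩

/-- Coordinates in which `T` is multiplication by a root of the cyclotomic polynomial. -/
theorem exists_coordinates (hpq : p ≠ q) [hirr : Fact (Irreducible (cyclotomic q (ZMod p)))]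
    (T : Module.End (ZMod p) V) (hTq : T ^ q = 1) (hfix : ∀ v, T v = v → v = 0)
    {v : V} (hv : v ≠ 0) :
    ∃ (n : ℕ) (e : V ≃+ (Fin (n + 1) → AdjoinRoot (cyclotomic q (ZMod p)))),
      e v = Pi.single 0 1 ∧ ∀ w, e (T w) = AdjoinRoot.root (cyclotomic q (ZMod p)) • e w := by
  classical
  set Φ := cyclotomic q (ZMod p)
  have hΦ : aeval T Φ = 0 := by
    refine LinearMap.ext fun w => ?_
    have h : aeval T ((X - 1) * Φ) w = 0 := by
      rw [mul_comm, cyclotomic_prime_mul_X_sub_one]; simp [hTq]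
    rw [map_mul, Module.End.mul_apply] at h
    simp only [map_sub, aeval_X, map_one, LinearMap.sub_apply, Module.End.one_apply] at h
    exact hfix _ (sub_eq_zero.mp h)
  let φ : AdjoinRoot Φ →+* Module.End (ZMod p) V :=
    Ideal.Quotient.lift (Ideal.span {Φ}) (aeval T).toRingHom (fun a ha => by
      obtain ⟨c, rfl⟩ := Ideal.mem_span_singleton.mp ha
      show aeval T (Φ * c) = 0
      rw [map_mul, hΦ, zero_mul])
  letI : Module (AdjoinRoot Φ) V := Module.compHom V φ
  haveI : Module.Finite (AdjoinRoot Φ) V := Module.Finite.of_finite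
  haveI : Nontrivial V := ⟨⟨v, 0, hv⟩⟩
  obtain ⟨n, hn⟩ := Nat.exists_eq_succ_of_ne_zero
    (Module.finrank_pos (R := AdjoinRoot Φ) (M := V)).ne'
  obtain ⟨e, he⟩ := exists_linearEquiv_single hn hv
  refine ⟨n, e.toAddEquiv, he, fun w => ?_⟩
  show e (T w) = _
  rw [show T w = AdjoinRoot.root Φ • w from ?_, map_smul]; · rfl
  show T w = φ (AdjoinRoot.mk Φ X) w
  rw [show φ (AdjoinRoot.mk Φ X) = aeval T X from Ideal.Quotient.lift_mk _ _ _, aeval_X]

/-- If `p` is a primitive root modulo `q`, all nonzero vectors and all nontrivial powers of a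
fixed-point-free `T` of order `q` are equivalent. -/
theorem exists_semiconj_of_primitive (hpq : p ≠ q) (hprim : orderOf (p : ZMod q) = q - 1)
    (T : Module.End (ZMod p) V) (hTq : T ^ q = 1) (hfix : ∀ v, T v = v → v = 0)
    {i : ℕ} (hi : ¬ q ∣ i) {v w : V} (hv : v ≠ 0) (hw : w ≠ 0) :
    ∃ A : V ≃+ V, (∀ u, A (T u) = (T ^ i) (A u)) ∧ A v = w := by
  haveI := Fact.mk (natDegree_cyclotomic_irreducible hpq hprim).1
  set Φ := cyclotomic q (ZMod p)
  have hS : (T ^ i) ^ q = 1 := by rw [← pow_mul, mul_comm, pow_mul, hTq, one_pow]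
  have hfixS : ∀ u, (T ^ i) u = u → u = 0 := by
    intro u hu
    refine hfix u ?_
    obtain ⟨k, hk⟩ := exists_inv_mod (q := q) hi
    have h1 : ∀ j, ((T ^ i) ^ j) u = u := by
      intro j
      induction j with
      | zero => rfl
      | succ j ih => rw [pow_succ, Module.End.mul_apply, hu, ih]
    have h2 := h1 k
    rwa [← pow_mul, pow_eq_pow_of_modEq hTq hk, pow_one] at h2
  obtain ⟨n₁, e₁, hv₁, hT₁⟩ := exists_coordinates hpq T hTq hfix hv
  obtain ⟨n₂, e₂, hw₂, hT₂⟩ := exists_coordinates hpq (T ^ i) hS hfixS hw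
  haveI : Finite (AdjoinRoot Φ) :=
    Finite.of_injective (fun a => e₁.symm (Pi.single 0 a))
      (fun a b h => by simpa using congrFun (e₁.symm.injective h) 0)
  obtain rfl : n₁ = n₂ := by
    have h := (Nat.card_congr e₁.toEquiv).symm.trans (Nat.card_congr e₂.toEquiv)
    rw [Nat.card_fun, Nat.card_fun, Nat.card_fin, Nat.card_fin] at h
    have := Nat.pow_right_injective (Finite.one_lt_card (α := AdjoinRoot Φ)) h
    omega
  refine ⟨e₁.trans e₂.symm, fun u => ?_, ?_⟩
  · apply e₂.injective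
    simp only [AddEquiv.trans_apply, AddEquiv.apply_symm_apply, hT₁, hT₂]
  · apply e₂.injective
    simp only [AddEquiv.trans_apply, AddEquiv.apply_symm_apply, hv₁, hw₂]

end

end Cfsg.Agent.FGS75
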